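import Cfsg.Agent.H53.DgDefs
import Cfsg.Agent.S2580

/-!
# Levi decompositions for totally singular subspaces
-/

set_option autoImplicit false

namespace Cfsg.Agent.H31.DgL

open Module Cfsg.Agent.H26 Cfsg.Agent.H26.PForm Cfsg.Agent.H78 Cfsg.Agent.H53.Dg

variable {F V : Type} [Field F] [AddCommGroup V] [Module F V] {P : PForm F V}

theorem f_sum_left {ι : Type} [Fintype ι] (c : ι → F) (v : ι → V) (y : V) :
    P.f (∑ i, c i • v i) y = ∑ i, c i * P.f (v i) y := by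
  rw [← fL_apply, map_sum]
  exact Finset.sum_congr rfl fun i _ => P.f_smul_left _ _ _

theorem herm' (hσ : ∀ a, P.σ a = a) (x y : V) : P.f y x = P.ε * P.f x y := by rw [P.herm, hσ]

theorem f_sum_right (hσ : ∀ a, P.σ a = a) {ι : Type} [Fintype ι] (c : ι → F) (v : ι → V) (x : V) :
    P.f x (∑ i, c i • v i) = ∑ i, c i * P.f x (v i) := by
  rw [herm' hσ, f_sum_left, Finset.mul_sum]
  exact Finset.sum_congr rfl fun i _ => by rw [herm' hσ (v i) x]; ring

theorem ts_span {ι : Type} {v : ι → V} (h1 : ∀ i, P.Sing (v i)) (h2 : ∀ i j, P.f (v i) (v j) = 0) :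
    TS P (Submodule.span F (Set.range v)) := by
  have h : Submodule.span F (Set.range v) ≤ P.perp (Submodule.span F (Set.range v)) := by
    rw [Submodule.span_le]
    rintro _ ⟨i, rfl⟩
    exact PForm.mem_perp_span.2 (by rintro _ ⟨j, rfl⟩; exact h2 i j)
  refine ⟨fun x hx => ?_, h⟩
  induction hx using Submodule.span_induction with
  | mem x hx => obtain ⟨i, rfl⟩ := hx; exact h1 i
  | zero => exact P.sing_zero
  | add x y hx hy ihx ihy => exact ihx.add ihy (h hx y hy)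
  | smul c x _ ih => exact ih.smul c

theorem h_dec {x x' w : V} (hx : P.Sing x) (hx' : P.Sing x') (h1 : P.f x w = 0)
    (h2 : P.f x' w = 0) : P.h (x + x' + w) - P.f x x' - P.h w ∈ P.Λ := by
  have := P.Λ.add_mem (P.Λ.add_mem (P.Λ.add_mem (P.h_add (x + x') w) (P.h_add x x')) hx) hx'
  rw [P.f_add_left, h1, h2] at this
  convert this using 1
  ring

theorem f_dec {Y Y' : Submodule F V} (hY : TS P Y) (hY' : TS P Y') {x x' w y y' u : V}
    (hx : x ∈ Y) (hx' : x' ∈ Y') (hw : w ∈ P.perp (Y ⊔ Y')) (hy : y ∈ Y) (hy' : y' ∈ Y')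
    (hu : u ∈ P.perp (Y ⊔ Y')) :
    P.f (x + x' + w) (y + y' + u) = P.f x y' + P.f x' y + P.f w u := by
  simp only [P.f_add_left, P.f_add_right]
  rw [hY.2 hx y hy, hY'.2 hx' y' hy', f_of_mem_perp' hu (Submodule.mem_sup_left hx),
    f_of_mem_perp' hu (Submodule.mem_sup_right hx'), f_of_mem_perp hw (Submodule.mem_sup_left hy),
    f_of_mem_perp hw (Submodule.mem_sup_right hy')]
  ring

theorem exists_isom [FiniteDimensional F V] (g : V →ₗ[F] V) (h1 : ∀ x y, P.f (g x) (g y) = P.f x y)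
    (h2 : ∀ x, P.h (g x) - P.h x ∈ P.Λ) : ∃ G ∈ P.isom, ∀ v, G v = g v := by
  have hi : Function.Injective g := by
    rw [injective_iff_map_eq_zero]
    exact fun y hy => P.nondeg y fun x => by rw [← h1, hy, f_zero_right]
  exact ⟨LinearEquiv.ofInjectiveEndo g hi, ⟨h1, h2⟩, fun _ => rfl⟩

variable (P) in
/-- Orthogonal hyperbolic pairs. -/
structure HP (k : ℕ) where
  /-- The first vectors. -/
  e : Fin k → V
  /-- The second vectors. -/
  e' : Fin k → V
  sig : ∀ a, P.σ a = a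
  s : ∀ i, P.Sing (e i)
  s' : ∀ i, P.Sing (e' i)
  o : ∀ i j, P.f (e i) (e j) = 0
  o' : ∀ i j, P.f (e' i) (e' j) = 0
  d : ∀ i j, P.f (e i) (e' j) = if i = j then 1 else 0

namespace HP

variable {k : ℕ} (H : HP P k)

/-- The first subspace. -/
def X : Submodule F V := Submodule.span F (Set.range H.e)
/-- The second subspace. -/
def X' : Submodule F V := Submodule.span F (Set.range H.e')
/-- The first projection. -/
noncomputable def p : V →ₗ[F] V := ∑ i, (P.fL (H.e' i)).smulRight (H.e i)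
/-- The second projection. -/
noncomputable def p' : V →ₗ[F] V := ∑ i, (P.ε • P.fL (H.e i)).smulRight (H.e' i)
/-- The third projection. -/
noncomputable def π : V →ₗ[F] V := LinearMap.id - H.p - H.p'

theorem ts : TS P H.X := ts_span H.s H.o
theorem ts' : TS P H.X' := ts_span H.s' H.o'
theorem e_mem (i : Fin k) : H.e i ∈ H.X := Submodule.subset_span ⟨i, rfl⟩
theorem e'_mem (i : Fin k) : H.e' i ∈ H.X' := Submodule.subset_span ⟨i, rfl⟩
theorem sum_mem (c : Fin k → F) : ∑ i, c i • H.e i ∈ H.X :=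
  Submodule.sum_mem _ fun i _ => Submodule.smul_mem _ _ (H.e_mem i)
theorem sum_mem' (c : Fin k → F) : ∑ i, c i • H.e' i ∈ H.X' :=
  Submodule.sum_mem _ fun i _ => Submodule.smul_mem _ _ (H.e'_mem i)

theorem d' (i j : Fin k) : P.f (H.e' i) (H.e j) = if i = j then P.ε else 0 := by
  rw [herm' H.sig, H.d]
  by_cases h : i = j
  · simp [h]
  · simp [h, Ne.symm h]

theorem p_apply (v : V) : H.p v = ∑ i, P.f v (H.e' i) • H.e i := by
  simp only [p, LinearMap.sum_apply, LinearMap.smulRight_apply, fL_apply]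

theorem p'_apply (v : V) : H.p' v = ∑ i, (P.ε * P.f v (H.e i)) • H.e' i := by
  simp only [p', LinearMap.sum_apply, LinearMap.smulRight_apply, LinearMap.smul_apply, fL_apply,
    smul_eq_mul]

theorem p_mem (v : V) : H.p v ∈ H.X := by rw [p_apply]; exact H.sum_mem _
theorem p'_mem (v : V) : H.p' v ∈ H.X' := by rw [p'_apply]; exact H.sum_mem' _

theorem f_sum_e' (c : Fin k → F) (j : Fin k) : P.f (∑ i, c i • H.e i) (H.e' j) = c j := by
  simp [f_sum_left, H.d]

theorem f_sum_e (c : Fin k → F) (j : Fin k) : P.f (∑ i, c i • H.e' i) (H.e j) = c j * P.ε := by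
  simp [f_sum_left, H.d']

theorem dec (v : V) : H.p v + H.p' v + H.π v = v := by
  simp [π]

theorem π_mem (v : V) : H.π v ∈ P.perp (H.X ⊔ H.X') := by
  have e : H.π v = v - H.p v - H.p' v := rfl
  rw [PForm.perp_sup, e]
  refine ⟨PForm.mem_perp_span.2 ?_, PForm.mem_perp_span.2 ?_⟩
  · rintro _ ⟨j, rfl⟩
    rw [f_sub_left, f_sub_left, H.ts.2 (H.p_mem v) _ (H.e_mem j), p'_apply, f_sum_e]
    linear_combination (-P.f v (H.e j)) * P.ε_sq
  · rintro _ ⟨j, rfl⟩
    rw [f_sub_left, f_sub_left, H.ts'.2 (H.p'_mem v) _ (H.e'_mem j), p_apply, f_sum_e']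
    ring

variable {H}

theorem p_X {x : V} (hx : x ∈ H.X) : H.p x = x := by
  obtain ⟨c, rfl⟩ := (Submodule.mem_span_range_iff_exists_fun F).1 hx
  rw [p_apply]
  exact Finset.sum_congr rfl fun i _ => by rw [f_sum_e']

theorem p'_X' {x : V} (hx : x ∈ H.X') : H.p' x = x := by
  obtain ⟨c, rfl⟩ := (Submodule.mem_span_range_iff_exists_fun F).1 hx
  rw [p'_apply]
  exact Finset.sum_congr rfl fun i _ => by
    rw [f_sum_e, mul_left_comm, P.ε_sq, mul_one]

theorem p_perp {v : V} (hv : v ∈ P.perp H.X') : H.p v = 0 := by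
  rw [p_apply]
  exact Finset.sum_eq_zero fun i _ => by rw [hv _ (H.e'_mem i), zero_smul]

theorem p'_perp {v : V} (hv : v ∈ P.perp H.X) : H.p' v = 0 := by
  rw [p'_apply]
  exact Finset.sum_eq_zero fun i _ => by rw [hv _ (H.e_mem i), mul_zero, zero_smul]

theorem W_X {v : V} (hv : v ∈ P.perp (H.X ⊔ H.X')) : v ∈ P.perp H.X := PForm.perp_anti le_sup_left hv
theorem W_X' {v : V} (hv : v ∈ P.perp (H.X ⊔ H.X')) : v ∈ P.perp H.X' := PForm.perp_anti le_sup_right hv

theorem π_X {x : V} (hx : x ∈ H.X) : H.π x = 0 := by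
  have := H.dec x
  rw [p_X hx, p'_perp (H.ts.2 hx), add_zero] at this
  exact add_eq_left.1 this

theorem π_X' {x : V} (hx : x ∈ H.X') : H.π x = 0 := by
  have := H.dec x
  rw [p'_X' hx, p_perp (H.ts'.2 hx), zero_add] at this
  exact add_eq_left.1 this

theorem π_W {x : V} (hx : x ∈ P.perp (H.X ⊔ H.X')) : H.π x = x := by
  have := H.dec x
  rwa [p_perp (W_X' hx), p'_perp (W_X hx), zero_add, zero_add] at this

variable (H)

theorem opp : H.X ⊓ P.perp H.X' = ⊥ :=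
  eq_bot_iff.2 fun _ hx => (p_X hx.1).symm.trans (p_perp hx.2)

theorem hW : ∀ y ∈ P.perp (H.X ⊔ H.X'), (∀ x ∈ P.perp (H.X ⊔ H.X'), P.f x y = 0) → y = 0 :=
  fun y hy h => P.nondeg y fun x => by
    rw [← H.dec x, P.f_add_left, P.f_add_left, h _ (H.π_mem x), f_of_mem_perp' (W_X hy) (H.p_mem x),
      f_of_mem_perp' (W_X' hy) (H.p'_mem x), add_zero, add_zero]

theorem li : LinearIndependent F H.e :=
  Fintype.linearIndependent_iff.2 fun c hc j => by rw [← H.f_sum_e' c j, hc, f_zero_left]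

theorem li' : LinearIndependent F H.e' :=
  Fintype.linearIndependent_iff.2 fun c hc j => by
    have := H.f_sum_e c j
    rw [hc, f_zero_left] at this
    exact (mul_eq_zero.1 this.symm).resolve_right P.ε_ne_zero

theorem dim : finrank F H.X = k := by rw [X, finrank_span_eq_card H.li, Fintype.card_fin]
theorem dim' : finrank F H.X' = k := by rw [X', finrank_span_eq_card H.li', Fintype.card_fin]

theorem dimW [FiniteDimensional F V] :
    finrank F (P.perp (H.X ⊔ H.X')) + 2 * k = finrank F V := by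
  have h1 := P.finrank_perp (H.X ⊔ H.X')
  have h2 := Submodule.finrank_sup_add_finrank_inf_eq H.X H.X'
  have h3 : H.X ⊓ H.X' = ⊥ := eq_bot_iff.2 (H.opp ▸ inf_le_inf_left _ H.ts'.2)
  rw [h3, finrank_bot, dim, dim'] at h2
  omega

/-- Assembling an isometry. -/
theorem iso_of [FiniteDimensional F V] {Y Y' : Submodule F V} (hY : TS P Y) (hY' : TS P Y')
    (g : V →ₗ[F] V) (h1 : ∀ x ∈ H.X, g x ∈ Y) (h2 : ∀ x ∈ H.X', g x ∈ Y')
    (h3 : ∀ w ∈ P.perp (H.X ⊔ H.X'), g w ∈ P.perp (Y ⊔ Y'))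
    (h4 : ∀ x ∈ H.X, ∀ x' ∈ H.X', P.f (g x) (g x') = P.f x x')
    (h5 : ∀ w ∈ P.perp (H.X ⊔ H.X'), ∀ u ∈ P.perp (H.X ⊔ H.X'), P.f (g w) (g u) = P.f w u)
    (h6 : ∀ w ∈ P.perp (H.X ⊔ H.X'), P.h (g w) - P.h w ∈ P.Λ) : ∃ G ∈ P.isom, ∀ v, G v = g v := by
  refine exists_isom g (fun v u => ?_) fun v => ?_
  · conv_lhs => rw [← H.dec v, ← H.dec u]
    conv_rhs => rw [← H.dec v, ← H.dec u]
    rw [map_add, map_add, map_add, map_add, f_dec hY hY' (h1 _ (H.p_mem v)) (h2 _ (H.p'_mem v))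
      (h3 _ (H.π_mem v)) (h1 _ (H.p_mem u)) (h2 _ (H.p'_mem u)) (h3 _ (H.π_mem u)),
      f_dec H.ts H.ts' (H.p_mem v) (H.p'_mem v) (H.π_mem v) (H.p_mem u) (H.p'_mem u) (H.π_mem u),
      h4 _ (H.p_mem v) _ (H.p'_mem u), h5 _ (H.π_mem v) _ (H.π_mem u),
      herm' H.sig (g (H.p u)), h4 _ (H.p_mem u) _ (H.p'_mem v), ← herm' H.sig]
  · have a := h_dec (hY.1 _ (h1 _ (H.p_mem v))) (hY'.1 _ (h2 _ (H.p'_mem v)))
      (f_of_mem_perp' (h3 _ (H.π_mem v)) (Submodule.mem_sup_left (h1 _ (H.p_mem v))))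
      (f_of_mem_perp' (h3 _ (H.π_mem v)) (Submodule.mem_sup_right (h2 _ (H.p'_mem v))))
    have b := h_dec (H.ts.1 _ (H.p_mem v)) (H.ts'.1 _ (H.p'_mem v))
      (f_of_mem_perp' (W_X (H.π_mem v)) (H.p_mem v)) (f_of_mem_perp' (W_X' (H.π_mem v)) (H.p'_mem v))
    rw [← map_add, ← map_add, H.dec, h4 _ (H.p_mem v) _ (H.p'_mem v)] at a
    rw [H.dec] at b
    have := P.Λ.add_mem (P.Λ.sub_mem a b) (h6 _ (H.π_mem v))
    convert this using 1
    ring

theorem exists_pr [FiniteDimensional F V] (g : V ≃ₗ[F] V) :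
    ∃ B : (res P (P.perp (H.X ⊔ H.X')) H.hW).isom, g ∈ P.isom → g ∈ stabSub H.X →
      ∀ v : P.perp (H.X ⊔ H.X'), g v - (B.1 v : V) ∈ H.X := by
  by_cases hg : g ∈ P.isom ∧ g ∈ stabSub H.X
  swap
  · exact ⟨1, fun a b => absurd ⟨a, b⟩ hg⟩
  have h1 : ∀ v : P.perp (H.X ⊔ H.X'), g v ∈ P.perp H.X := fun v x hx => by
    rw [← apply_inv_apply g x, hg.1.1]
    exact W_X v.2 _ ((inv_mem hg.2 x).1 hx)
  have h2 : ∀ v : P.perp (H.X ⊔ H.X'), g v = H.p (g v) + 0 + H.π (g v) := fun v => by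
    rw [← p'_perp (h1 v), H.dec]
  obtain ⟨B, hB, e⟩ := exists_isom (P := res P (P.perp (H.X ⊔ H.X')) H.hW)
    ((H.π ∘ₗ (g : V →ₗ[F] V) ∘ₗ (P.perp (H.X ⊔ H.X')).subtype).codRestrict _ fun v => H.π_mem _)
    (fun v u => by
      change P.f (H.π (g v)) (H.π (g u)) = P.f v u
      rw [← hg.1.1 v u]
      conv_rhs => rw [h2 v, h2 u]
      rw [f_dec H.ts H.ts' (H.p_mem _) (zero_mem _) (H.π_mem _) (H.p_mem _) (zero_mem _) (H.π_mem _),
        f_zero_left, f_zero_right, zero_add, zero_add])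
    (fun v => by
      change P.h (H.π (g v)) - P.h v ∈ P.Λ
      have a := h_dec (H.ts.1 _ (H.p_mem (g v))) P.sing_zero
        (f_of_mem_perp' (W_X (H.π_mem (g v))) (H.p_mem _)) (P.f_zero_left _)
      rw [← h2, f_zero_right] at a
      have := P.Λ.sub_mem (hg.1.2 v) a
      convert this using 1
      ring)
  refine ⟨⟨B, hB⟩, fun _ _ v => ?_⟩
  have e1 : (B v : V) = H.π (g v) := congrArg Subtype.val (e v)
  change g v - (B v : V) ∈ H.X
  rw [e1]
  have h3 := h2 v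
  rw [add_zero] at h3
  rw [sub_eq_of_eq_add h3]
  exact H.p_mem _

theorem uniq {B B' : (res P (P.perp (H.X ⊔ H.X')) H.hW).isom} {g : V ≃ₗ[F] V}
    (h : ∀ v : P.perp (H.X ⊔ H.X'), g v - (B.1 v : V) ∈ H.X)
    (h' : ∀ v : P.perp (H.X ⊔ H.X'), g v - (B'.1 v : V) ∈ H.X) : B = B' := by
  refine Subtype.ext (LinearEquiv.ext fun v => Subtype.ext ?_)
  have h1 : (B.1 v : V) - B'.1 v ∈ H.X ⊓ P.perp H.X' := ⟨by
    have := H.X.sub_mem (h' v) (h v)
    rwa [sub_sub_sub_cancel_left] at this, sub_mem (W_X' (B.1 v).2) (W_X' (B'.1 v).2)⟩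
  rwa [H.opp, Submodule.mem_bot, sub_eq_zero] at h1

theorem exists_lift [FiniteDimensional F V] (A : H.X ≃ₗ[F] H.X)
    (B : (res P (P.perp (H.X ⊔ H.X')) H.hW).isom) :
    ∃ g ∈ P.isom, (∀ x : H.X, g x = A x) ∧ (∀ x ∈ H.X', g x ∈ H.X') ∧
      ∀ w : P.perp (H.X ⊔ H.X'), g w = B.1 w := by
  let g : V →ₗ[F] V := H.X.subtype ∘ₗ (A : H.X →ₗ[F] H.X) ∘ₗ H.p.codRestrict _ H.p_mem +
    ∑ i, (P.ε • P.fL (A.symm ⟨H.e i, H.e_mem i⟩ : V)).smulRight (H.e' i) +
    (P.perp (H.X ⊔ H.X')).subtype ∘ₗ (B.1 : _ →ₗ[F] _) ∘ₗ H.π.codRestrict _ H.π_mem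
  have hg : ∀ v, g v = (A ⟨H.p v, H.p_mem v⟩ : V) +
      ∑ i, (P.ε * P.f v (A.symm ⟨H.e i, H.e_mem i⟩ : V)) • H.e' i +
      (B.1 ⟨H.π v, H.π_mem v⟩ : V) := fun v => by
    simp only [g, LinearMap.add_apply, LinearMap.sum_apply, LinearMap.smulRight_apply,
      LinearMap.smul_apply, fL_apply, smul_eq_mul]
    rfl
  have z : ∀ v ∈ P.perp H.X,
      ∑ i, (P.ε * P.f v (A.symm ⟨H.e i, H.e_mem i⟩ : V)) • H.e' i = 0 := fun v hv =>
    Finset.sum_eq_zero fun i _ => by rw [hv _ (A.symm _).2, mul_zero, zero_smul]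
  have g1 : ∀ x : H.X, g x = A x := fun x => by
    rw [hg, z _ (H.ts.2 x.2), show (⟨H.π x, H.π_mem x⟩ : P.perp (H.X ⊔ H.X')) = 0 from
      Subtype.ext (π_X x.2), show (⟨H.p x, H.p_mem x⟩ : H.X) = x from Subtype.ext (p_X x.2),
      map_zero, Submodule.coe_zero, add_zero, add_zero]
  have g2 : ∀ x ∈ H.X',
      g x = ∑ i, (P.ε * P.f x (A.symm ⟨H.e i, H.e_mem i⟩ : V)) • H.e' i := fun x hx => by
    rw [hg, show (⟨H.π x, H.π_mem x⟩ : P.perp (H.X ⊔ H.X')) = 0 from Subtype.ext (π_X' hx),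
      show (⟨H.p x, H.p_mem x⟩ : H.X) = 0 from Subtype.ext (p_perp (H.ts'.2 hx)),
      map_zero, map_zero, Submodule.coe_zero, Submodule.coe_zero, add_zero, zero_add]
  have g3 : ∀ w : P.perp (H.X ⊔ H.X'), g w = B.1 w := fun w => by
    rw [hg, z _ (W_X w.2), show (⟨H.π w, H.π_mem w⟩ : P.perp (H.X ⊔ H.X')) = w from
      Subtype.ext (π_W w.2), show (⟨H.p w, H.p_mem w⟩ : H.X) = 0 from
      Subtype.ext (p_perp (W_X' w.2)), map_zero, Submodule.coe_zero, zero_add, zero_add]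
  have g2' : ∀ x ∈ H.X', g x ∈ H.X' := fun x hx => by rw [g2 x hx]; exact H.sum_mem' _
  obtain ⟨G, hG, e⟩ := H.iso_of H.ts H.ts' g (fun x hx => by rw [g1 ⟨x, hx⟩]; exact (A _).2) g2'
    (fun w hw => by rw [g3 ⟨w, hw⟩]; exact (B.1 _).2)
    (fun x hx x' hx' => by
      rw [g1 ⟨x, hx⟩, g2 x' hx', f_sum_right H.sig]
      have e1 : (⟨x, hx⟩ : H.X) =
          ∑ i, P.f (A ⟨x, hx⟩ : V) (H.e' i) • A.symm ⟨H.e i, H.e_mem i⟩ := by
        apply A.injective
        apply Subtype.ext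
        rw [map_sum, Submodule.coe_sum]
        conv_lhs => rw [← p_X (A ⟨x, hx⟩).2, p_apply]
        exact Finset.sum_congr rfl fun i _ => by rw [map_smul, A.apply_symm_apply]; rfl
      have e2 := congrArg Subtype.val e1
      rw [Submodule.coe_sum] at e2
      conv_rhs => rw [show x = _ from e2]
      simp only [Submodule.coe_smul]
      rw [f_sum_left]
      exact Finset.sum_congr rfl fun i _ => by rw [← herm' H.sig, mul_comm])
    (fun w hw u hu => by rw [g3 ⟨w, hw⟩, g3 ⟨u, hu⟩]; exact B.2.1 ⟨w, hw⟩ ⟨u, hu⟩)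
    (fun w hw => by rw [g3 ⟨w, hw⟩]; exact B.2.2 ⟨w, hw⟩)
  exact ⟨G, hG, fun x => (e x).trans (g1 x), fun x hx => (e x).symm ▸ g2' x hx,
    fun w => (e w).trans (g3 w)⟩

theorem exists_w0 [FiniteDimensional F V] : ∃ g ∈ P.isom,
    (∀ x ∈ H.X, g x = ∑ i, P.f x (H.e' i) • H.e' i) ∧
    (∀ x ∈ H.X', g x = ∑ i, P.f x (H.e i) • H.e i) ∧ ∀ w ∈ P.perp (H.X ⊔ H.X'), g w = w := by
  let g : V →ₗ[F] V := ∑ i, (P.fL (H.e' i)).smulRight (H.e' i) +
    ∑ i, (P.fL (H.e i)).smulRight (H.e i) + H.π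
  have hg : ∀ v, g v = ∑ i, P.f v (H.e' i) • H.e' i + ∑ i, P.f v (H.e i) • H.e i + H.π v :=
    fun v => by
      simp only [g, LinearMap.add_apply, LinearMap.sum_apply, LinearMap.smulRight_apply, fL_apply]
  have z : ∀ v ∈ P.perp H.X, ∑ i, P.f v (H.e i) • H.e i = 0 := fun v hv =>
    Finset.sum_eq_zero fun i _ => by rw [hv _ (H.e_mem i), zero_smul]
  have z' : ∀ v ∈ P.perp H.X', ∑ i, P.f v (H.e' i) • H.e' i = 0 := fun v hv =>
    Finset.sum_eq_zero fun i _ => by rw [hv _ (H.e'_mem i), zero_smul]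
  have g1 : ∀ x ∈ H.X, g x = ∑ i, P.f x (H.e' i) • H.e' i := fun x hx => by
    rw [hg, z _ (H.ts.2 hx), π_X hx, add_zero, add_zero]
  have g2 : ∀ x ∈ H.X', g x = ∑ i, P.f x (H.e i) • H.e i := fun x hx => by
    rw [hg, z' _ (H.ts'.2 hx), π_X' hx, add_zero, zero_add]
  have g3 : ∀ w ∈ P.perp (H.X ⊔ H.X'), g w = w := fun w hw => by
    rw [hg, z _ (W_X hw), z' _ (W_X' hw), π_W hw, zero_add, zero_add]
  obtain ⟨G, hG, e⟩ := H.iso_of H.ts' H.ts g (fun x hx => by rw [g1 x hx]; exact H.sum_mem' _)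
    (fun x hx => by rw [g2 x hx]; exact H.sum_mem _)
    (fun w hw => by rw [g3 w hw, sup_comm]; exact hw)
    (fun x hx x' hx' => by
      rw [g1 x hx, g2 x' hx', f_sum_right H.sig]
      conv_rhs => rw [← p_X hx, p_apply, f_sum_left]
      exact Finset.sum_congr rfl fun i _ => by rw [f_sum_e, herm' H.sig x' (H.e i)]; ring)
    (fun w hw u hu => by rw [g3 w hw, g3 u hu])
    (fun w hw => by rw [g3 w hw, sub_self]; exact P.Λ.zero_mem)
  exact ⟨G, hG, fun x hx => (e x).trans (g1 x hx), fun x hx => (e x).trans (g2 x hx),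
    fun w hw => (e w).trans (g3 w hw)⟩

end HP

theorem isConj_of_transpose [Finite F] {X : Type} [AddCommGroup X] [Module F X] {k : ℕ}
    (b : Basis (Fin k) F X) {A C : X ≃ₗ[F] X}
    (h : LinearMap.toMatrix b b (C : X →ₗ[F] X) = (LinearMap.toMatrix b b (A : X →ₗ[F] X)).transpose) :
    IsConj C A := by
  have h1 := (Cfsg.Agent.S2580.result (LinearMap.toMatrix b b (A : X →ₗ[F] X))).symm
  rw [← h] at h1
  obtain ⟨c, hc⟩ := (Matrix.toLinAlgEquiv b).toMonoidHom.map_isConj h1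
  refine isConj_iff.2 ⟨LinearMap.GeneralLinearGroup.toLinearEquiv c, ?_⟩
  rw [mul_inv_eq_iff_eq_mul]
  have e : ∀ g : X →ₗ[F] X, (Matrix.toLinAlgEquiv b).toMonoidHom (LinearMap.toMatrix b b g) = g :=
    fun g => Matrix.toLin_toMatrix b b g
  rw [e, e] at hc
  exact LinearEquiv.ext fun v => LinearMap.congr_fun hc.eq v

namespace HP

variable {k : ℕ} (H : HP P k)

theorem exists_lev [Finite F] [FiniteDimensional F V] : ∃ L : Lev P k, L.X = H.X ∧ L.X' = H.X' := by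
  choose pr hpr using H.exists_pr
  obtain ⟨w, hw, w1, w2, w3⟩ := H.exists_w0
  have we : ∀ i, w (H.e i) = H.e' i := fun i => by simp [w1 _ (H.e_mem i), H.d]
  have we' : ∀ i, w (H.e' i) = P.ε • H.e i := fun i => by simp [w2 _ (H.e'_mem i), H.d']
  have m1 : mp w H.X = H.X' := by
    rw [X, X', mp, Submodule.map_span, ← Set.range_comp]
    exact congrArg _ (congrArg _ (funext we))
  have m2 : mp w H.X' = H.X := by
    refine le_antisymm ?_ (Submodule.span_le.2 ?_)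
    · rintro _ ⟨x, hx, rfl⟩
      change w x ∈ H.X
      rw [w2 x hx]; exact H.sum_mem _
    · rintro _ ⟨i, rfl⟩
      refine ⟨P.ε • H.e' i, Submodule.smul_mem _ _ (H.e'_mem i), ?_⟩
      change w _ = _
      rw [map_smul, we', smul_smul, P.ε_sq, one_smul]
  refine ⟨{ X := H.X, X' := H.X', ts := H.ts, ts' := H.ts', dim := H.dim, dim' := H.dim'
            opp := H.opp, hW := H.hW, pr := pr, pr_spec := hpr, pr_mul := ?_, surj := ?_, w0 := w
            w0_mem := hw, w0_X := m1, w0_X' := m2, w0_W := w3, dual := ?_ }, rfl, rfl⟩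
  · intro g hg hg' h hh hh'
    refine H.uniq (hpr _ (mul_mem hg hh) (mul_mem hg' hh')) fun v => ?_
    have := H.X.add_mem ((hg' _).1 (hpr h hh hh' v)) (hpr g hg hg' ((pr h).1 v))
    rwa [map_sub, sub_add_sub_cancel] at this
  · intro A B
    obtain ⟨g, hg, g1, g2, g3⟩ := H.exists_lift A B
    have s1 : g ∈ stabSub H.X := mem_stabSub.2 fun x hx => by rw [g1 ⟨x, hx⟩]; exact (A _).2
    refine ⟨g, hg, s1, mem_stabSub.2 g2, LinearEquiv.ext fun x => Subtype.ext ?_,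
      H.uniq (hpr g hg s1) fun v => ?_⟩
    · rw [rs_apply s1, g1]
    · rw [g3, sub_self]; exact zero_mem _
  · intro g hg s1 s2
    have s3 : w⁻¹ * g * w ∈ stabSub H.X := mem_stabSub.2 fun x hx => by
      have h1 : g (w x) ∈ mp w H.X := by
        rw [m1]; exact (s2 _).1 (m1 ▸ ⟨x, hx, rfl⟩)
      obtain ⟨y, hy, e⟩ := h1
      change w⁻¹ (g (w x)) ∈ H.X
      rw [← e]
      change w⁻¹ (w y) ∈ H.X
      rwa [inv_apply_apply]
    let b : Basis (Fin k) F H.X := Basis.span H.li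
    have be : ∀ i, (b i : V) = H.e i := fun i => congrArg Subtype.val (Basis.span_apply H.li i)
    have br : ∀ (x : H.X) i, b.repr x i = P.f x (H.e' i) := fun x i => by
      conv_rhs => rw [← b.sum_repr x, Submodule.coe_sum]
      simp only [Submodule.coe_smul, be]
      rw [f_sum_e']
    have ri : (rs H.X g)⁻¹ = rs H.X g⁻¹ := inv_eq_of_mul_eq_one_right (by
      rw [← rs_mul s1 (inv_mem s1), mul_inv_cancel, rs_one])
    refine isConj_of_transpose b ?_
    ext i j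
    rw [Matrix.transpose_apply, LinearMap.toMatrix_apply, LinearMap.toMatrix_apply, br, br, ri,
      LinearEquiv.coe_coe, LinearEquiv.coe_coe, rs_apply s3, rs_apply (inv_mem s1), be, be,
      ← hw.1, ← hg.1 (g⁻¹ _), apply_inv_apply, we', f_smul_right, H.sig, herm' H.sig _ (H.e i)]
    change P.ε * P.f (w (w⁻¹ (g (w _)))) _ = _
    rw [apply_inv_apply, we]

end HP

/-- LEVI. -/
theorem levi : LeviStmt := by
  intro F V _ _ _ _ _ P sp w e k hT hk
  obtain ⟨Fr, hN, hA⟩ := hT.frame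
  let H : HP P k :=
    { e := fun i => Fr.e (i.castLE hk, false)
      e' := fun i => Fr.e (i.castLE hk, true)
      sig := hT.sig
      s := fun _ => Fr.sing _
      s' := fun _ => Fr.sing _
      o := fun i j => Fr.orth _ _ (by simp [ng])
      o' := fun i j => Fr.orth _ _ (by simp [ng])
      d := fun i j => by
        split_ifs with h
        · rw [h]; exact hN _
        · exact Fr.orth _ _ (by simpa [ng] using Ne.symm h) }
  obtain ⟨L, h1, h2⟩ := H.exists_lev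
  have hd := H.dimW
  rw [← h1, ← h2] at hd
  have hm : ∀ v, v ∈ L.W ↔ ∀ (i : Fin k) b, P.f v (Fr.e (i.castLE hk, b)) = 0 := fun v => by
    rw [Lev.W, h1, h2, PForm.perp_sup, Submodule.mem_inf, HP.X, HP.X', PForm.mem_perp_span,
      PForm.mem_perp_span, Set.forall_mem_range, Set.forall_mem_range]
    exact ⟨fun h i b => by cases b; exacts [h.1 i, h.2 i], fun h => ⟨fun i => h i _, fun i => h i _⟩⟩
  let ι : Fin (w - k) → Fin w := fun i => ⟨i + k, by omega⟩
  have hι : ∀ i j, ι i = ι j → i = j := fun i j h => Fin.ext (by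
    have := congrArg Fin.val h
    simp only [ι] at this
    omega)
  let Fr' : Frame L.PW (w - k) :=
    { e := fun a => ⟨Fr.e (ι a.1, a.2), (hm _).2 fun i b => Fr.orth _ _ fun h => by
        have := congrArg (fun c : BI w => c.1.val) h
        simp only [ng, ι, Fin.val_castLE] at this
        omega⟩
      sing := fun a => Fr.sing _
      orth := fun a b h => Fr.orth _ _ fun h' => h
        (Prod.ext (hι _ _ (congrArg (fun c : BI w => c.1) h')) (congrArg (fun c : BI w => c.2) h'))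
      pair := fun a => Fr.pair _ }
  refine ⟨L, hT.sig, fun h => ?_, fun h => ?_, Fr', fun i => hN _, fun v hv hs => Subtype.ext ?_⟩
  · obtain ⟨a, b, c, d⟩ := hT.symp h
    exact ⟨a, b, c, by change finrank F (P.perp (L.X ⊔ L.X')) = _; omega⟩
  · obtain ⟨a, b, c, d⟩ := hT.orth h
    exact ⟨a, b, c, by change finrank F (P.perp (L.X ⊔ L.X')) = _; omega⟩
  · refine hA v (Frame.mem_V0.2 fun a => ?_) hs
    by_cases h : a.1.val < k
    · exact (hm v).1 v.2 ⟨a.1, h⟩ a.2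
    · have := Frame.mem_V0.1 hv (⟨a.1 - k, by omega⟩, a.2)
      have e1 : ι ⟨a.1 - k, by omega⟩ = a.1 := Fin.ext (by simp only [ι]; omega)
      change P.f v (Fr.e (ι _, a.2)) = 0 at this
      rwa [e1] at this

end Cfsg.Agent.H31.DgL
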