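import Cfsg.Agent.H50.E72Defs

/-! Two generators of `L₂(19)` of orders 2 and 5 with product of order 5. -/

set_option autoImplicit false

namespace Cfsg.Agent.H31.E72Emb19

open Matrix Subgroup
open scoped MatrixGroups

universe u

/-- The generator of order four. -/
def a0 : SL(2, ZMod 19) := ⟨!![0, 1; -1, 0], by decide +kernel⟩
/-- The generator of order five. -/
def b0 : SL(2, ZMod 19) := ⟨!![2, 6; 10, 2], by decide +kernel⟩
/-- An upper triangular matrix. -/
def up (c : ZMod 19) : SL(2, ZMod 19) := ⟨!![1, c; 0, 1], by simp [Matrix.det_fin_two]⟩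
/-- A lower triangular matrix. -/
def lo (c : ZMod 19) : SL(2, ZMod 19) := ⟨!![1, 0; c, 1], by simp [Matrix.det_fin_two]⟩

theorem rel : (a0 * a0).1 = !![-1, 0; 0, -1] ∧ b0 ^ 5 = 1 ∧ (a0 * b0) ^ 5 = 1 ∧
    b0.1 0 1 ≠ 0 ∧ (a0 * b0).1 0 1 ≠ 0 ∧
    up 1 = a0 * a0 * (b0 * b0 * a0 * b0 * b0 * a0 * b0 * b0) ∧
    (∀ c, up (c + 1) = up c * up 1) ∧ up 0 = 1 ∧ ∀ c, lo c * a0 = a0 * up (-c) := by
  decide +kernel

theorem gen (K : Subgroup SL(2, ZMod 19)) (ha : a0 ∈ K) (hb : b0 ∈ K) (A : SL(2, ZMod 19)) :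
    A ∈ K := by
  have : Fact (Nat.Prime 19) := ⟨by norm_num⟩
  obtain ⟨-, -, -, -, -, h1, h2, h3, h4⟩ := rel
  have u1 : up 1 ∈ K := h1 ▸ mul_mem (mul_mem ha ha) (mul_mem (mul_mem (mul_mem (mul_mem (mul_mem
    (mul_mem (mul_mem hb hb) ha) hb) hb) ha) hb) hb)
  have un : ∀ n : ℕ, up n ∈ K := fun n => by
    induction n with
    | zero => rw [Nat.cast_zero, h3]; exact one_mem _
    | succ n ih => rw [Nat.cast_succ, h2]; exact mul_mem ih u1
  have uc : ∀ c, up c ∈ K := fun c => ZMod.natCast_zmod_val c ▸ un c.val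
  have lc : ∀ c, lo c ∈ K := fun c =>
    (K.mul_mem_cancel_right ha).1 (h4 c ▸ mul_mem ha (uc _))
  refine SL2.transvection_induction (F := ZMod 19) (· ∈ K) (fun i j h c => ?_)
    (fun _ _ => mul_mem) A
  fin_cases i <;> fin_cases j
  · exact absurd rfl h
  · convert uc c using 1
    ext i j
    fin_cases i <;> fin_cases j <;> simp [up, SpecialLinearGroup.transvection_coe]
  · convert lc c using 1
    ext i j
    fin_cases i <;> fin_cases j <;> simp [lo, SpecialLinearGroup.transvection_coe]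
  · exact absurd rfl h

theorem emb19 : H50.E72.Emb19Stmt.{u} := by
  intro F _ _ hF
  let f : ZMod 19 ≃+* F := ZMod.ringEquivOfPrime F (by norm_num) hF
  let φ : SL(2, ZMod 19) →* PSL(2, F) :=
    (QuotientGroup.mk' _).comp (SpecialLinearGroup.map (f : ZMod 19 →+* F))
  have one : ∀ A, φ A = 1 ↔ ∃ r : F, r ^ Fintype.card (Fin 2) = 1 ∧
      scalar (Fin 2) r = A.1.map f := fun A => by
    rw [MonoidHom.comp_apply, QuotientGroup.mk'_apply, QuotientGroup.eq_one_iff,
      Matrix.SpecialLinearGroup.mem_center_iff]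
    rfl
  have ne : ∀ A : SL(2, ZMod 19), A.1 0 1 ≠ 0 → φ A ≠ 1 := fun A h e => by
    obtain ⟨r, -, hr⟩ := (one A).1 e
    have := congrFun (congrFun hr 0) 1
    exact h (f.injective (by simpa using this.symm))
  obtain ⟨h1, h2, h3, h4, h5, -⟩ := rel
  refine ⟨φ a0, φ b0, ?_, by rw [← map_pow, h2, map_one], ne _ h4,
    by rw [← map_mul, ← map_pow, h3, map_one], by rw [← map_mul]; exact ne _ h5, ?_⟩
  · rw [← map_mul, one]
    refine ⟨-1, by simp, ?_⟩
    rw [h1]
    ext i j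
    fin_cases i <;> fin_cases j <;> simp
  · refine (eq_top_iff' _).2 fun x => ?_
    obtain ⟨A, rfl⟩ := QuotientGroup.mk'_surjective _ x
    have := gen ((closure {φ a0, φ b0}).comap φ) (subset_closure (by simp))
      (subset_closure (by simp)) (SpecialLinearGroup.map (f.symm : F →+* ZMod 19) A)
    have e : SpecialLinearGroup.map (f : ZMod 19 →+* F)
        (SpecialLinearGroup.map (f.symm : F →+* ZMod 19) A) = A := by
      ext i j
      exact f.apply_symm_apply _
    rw [← e]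
    exact this

end Cfsg.Agent.H31.E72Emb19
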