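import Cfsg.Agent.H6.E82Defs

/-! The action of two commuting fundamental subgroups on the centraliser of a torus. -/

set_option autoImplicit false

namespace Cfsg.Agent.H31.E82Gwa

open Cfsg.Agent.H6.E82

theorem vv_swap (α β : Rt) (h : V) (x y : K4) : vv α β h x y = vv β α h y x := by
  unfold vv
  abel

theorem vv_ng (c : BrcStmt) (α β : Rt) (h : V) (x y : K4) :
    vv α β h x y = vv (ng α) β h (x.1, x.2.2.1, x.2.1, x.2.2.2) y := by
  obtain ⟨-, -, c3, -, -, -, -, -, -, -, -, c12, -⟩ := c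
  unfold vv
  rw [c3, (c12 α).1, add_right_comm h]

theorem actU (f : RfStmt) (b : BrbStmt) (c : BrcStmt) (a : XactStmt) {α β : Rt} (p : pr α β = 0)
    (t : K) {h : V} (hh : h ∈ Cart) {x : K4} (y : K4) (hx : x.1 = ev α h) :
    act (xx α t) (vv α β h x y) = vv α β h (Um t x) y := by
  obtain ⟨-, -, f3, -⟩ := f
  obtain ⟨b1, b2, -, b4, b5, -, b7, -⟩ := b
  obtain ⟨c1, c2, -, -, c5, -, -, -, -, -, -, c12, c13, -⟩ := c
  have p2 : pr α α = 2 := C8.R.pair_self α
  have n1 : ng α ≠ β := fun e => by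
    rw [← e, (c13 α α).1, p2] at p
    omega
  have n2 : ng α ≠ ng β := fun e => by
    rw [← (c12 β).1, ← e, (c12 α).1, p2] at p
    omega
  have e1 : br (ee α) (vv α β h x y) = x.1 • ee α + x.2.2.1 • hr α := by
    unfold vv
    simp only [map_add, map_smul]
    rw [b1, b5, b7 α β p.ge, b7 α (ng β) (by rw [(c13 α β).1, p]; rfl), b2 _ h, b2 _ (hr α),
      b2 _ (hr β), b4 h hh, b4 _ (c1 α), b4 _ (c1 β), c2, c2, f3 β α, p, p2, ← hx,
      show ((2 : ℤ) : K) = 0 from by exact_mod_cast CharTwo.two_eq_zero (R := K)]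
    simp only [Int.cast_zero, zero_smul, smul_zero, add_zero]
  have e2 : vv α β h x y (Sum.inr (ng α)) = x.2.2.1 := by
    unfold vv
    simp only [Pi.add_apply, Pi.smul_apply, smul_eq_mul]
    rw [hh, c1 α, c1 β, c5, c5, c5, c5, if_neg (c12 α).2.1, if_pos rfl, if_neg n1, if_neg n2]
    ring
  rw [a.1, e1, e2]
  unfold vv Um
  module

theorem gwa (f : RfStmt) (b : BrbStmt) (c : BrcStmt) (a : XactStmt) : GwaStmt := by
  intro α β p t h hh x y hx hy
  have f3 := f.2.2.1
  obtain ⟨-, -, -, -, -, -, -, c8, -, -, -, -, c13, -⟩ := id c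
  have L : ∀ {α β : Rt}, pr α β = 0 → ∀ (t : K) {x : K4} (y : K4), x.1 = ev α h →
      act (xx (ng α) t) (vv α β h x y) = vv α β h (Lm t x) y := fun {α β} p t x y hx => by
    rw [vv_ng c, actU f b c a (show pr (ng α) β = 0 by rw [(c13 α β).2, p]; rfl) t hh y
      (by exact hx.trans (c8 α h).symm), vv_ng c α β h (Lm t x)]
    rfl
  have p' : pr β α = 0 := (f3 β α).trans p
  have U2 : ∀ (t : K) {x y : K4}, x.1 = ev α h → y.1 = ev β h →
      act (x2 α β t) (vv α β h x y) = vv α β h (Um t x) (Um (t ^ 2) y) := fun t x y hx hy => by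
    rw [x2, map_mul, Module.End.mul_apply, vv_swap, actU f b c a p' _ hh x hy, vv_swap,
      actU f b c a p _ hh _ hx]
  have L2 : ∀ (t : K) {x y : K4}, x.1 = ev α h → y.1 = ev β h →
      act (x2 (ng α) (ng β) t) (vv α β h x y) = vv α β h (Lm t x) (Lm (t ^ 2) y) :=
    fun t x y hx hy => by
      rw [x2, map_mul, Module.End.mul_apply, vv_swap, L p' _ x hy, vv_swap, L p _ _ hx]
  rw [gw, map_mul, map_mul, map_mul, Module.End.mul_apply, Module.End.mul_apply,
    Module.End.mul_apply, L2 _ hx hy, U2 _ (by exact hx) (by exact hy),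
    L2 _ (by exact hx) (by exact hy), U2 _ (by exact hx) (by exact hy)]
  rfl

end Cfsg.Agent.H31.E82Gwa
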