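import Cfsg.Agent.H75.ChevLin
import Cfsg.Agent.H40.ChevPar
import Cfsg.Agent.H34.Chev3
import Cfsg.Agent.H35.BNParabolic

/-!
Iterated cores of a maximal parabolic subgroup and its conjugate under a simple reflection.
-/

set_option autoImplicit false

namespace Cfsg.Agent.H31

open Equiv H34 H34.Split H40 H75

theorem mem_core_map {G : Type*} [Group G] {M Y : Subgroup G} {x : G} :
    x ∈ (Y.subgroupOf M).normalCore.map M.subtype ↔ x ∈ M ∧ ∀ g ∈ M, g * x * g⁻¹ ∈ Y := by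
  constructor
  · rintro ⟨y, hy, rfl⟩
    exact ⟨y.2, fun g hg => hy ⟨g, hg⟩⟩
  · rintro ⟨h1, h2⟩
    exact ⟨⟨x, h1⟩, fun g => h2 g g.2, rfl⟩

/-- The sequence of iterated cores. -/
def coreSeq {G : Type*} [Group G] (M : Subgroup G) (n : G) : ℕ → Subgroup G
  | 0 => M
  | i + 1 => ((coreSeq M n i ⊓ (coreSeq M n i).comap (MulAut.conj n).toMonoidHom).subgroupOf
      M).normalCore.map M.subtype

theorem mem_coreSeq_succ {G : Type*} [Group G] {M : Subgroup G} {n x : G} {i : ℕ} :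
    x ∈ coreSeq M n (i + 1) ↔ x ∈ M ∧ ∀ g ∈ M, g * x * g⁻¹ ∈ coreSeq M n i ∧
      n * (g * x * g⁻¹) * n⁻¹ ∈ coreSeq M n i := mem_core_map

theorem coreSeq_conj {G : Type*} [Group G] {M : Subgroup G} {n : G} (i : ℕ) {g x : G} (hg : g ∈ M)
    (hx : x ∈ coreSeq M n i) : g * x * g⁻¹ ∈ coreSeq M n i := by
  cases i with
  | zero => exact M.mul_mem (M.mul_mem hg hx) (M.inv_mem hg)
  | succ i =>
    rw [mem_coreSeq_succ] at hx ⊢
    refine ⟨M.mul_mem (M.mul_mem hg hx.1) (M.inv_mem hg), fun h hh => ?_⟩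
    have := hx.2 (h * g) (M.mul_mem hh hg)
    rwa [show h * g * x * (h * g)⁻¹ = h * (g * x * g⁻¹) * h⁻¹ by group] at this

theorem coreSeq_comap_succ {G : Type*} [Group G] {M : Subgroup G} {n : G} (hn : n * n ∈ M) (i : ℕ) :
    (coreSeq M n (i + 1)).comap (MulAut.conj n).toMonoidHom =
      ((coreSeq M n i ⊓ (coreSeq M n i).comap (MulAut.conj n).toMonoidHom).subgroupOf
        (M.comap (MulAut.conj n).toMonoidHom)).normalCore.map
        (M.comap (MulAut.conj n).toMonoidHom).subtype := by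
  ext x
  have e : ∀ (K : Subgroup G) (y : G),
      y ∈ K.comap (MulAut.conj n).toMonoidHom ↔ n * y * n⁻¹ ∈ K := fun _ _ => Iff.rfl
  rw [mem_core_map, e, mem_coreSeq_succ]
  simp only [Subgroup.mem_inf, e]
  refine and_congr Iff.rfl ⟨fun h g hg => ?_, fun h g hg => ?_⟩
  · obtain ⟨h1, h2⟩ := h _ hg
    have h3 := coreSeq_conj i (M.inv_mem hn) h2
    constructor
    · convert h3 using 1
      group
    · convert h1 using 1
      group
  · obtain ⟨h1, h2⟩ := h (n⁻¹ * g * n) (by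
      convert hg using 1
      group)
    have h3 := coreSeq_conj i hn h1
    constructor
    · convert h2 using 1
      group
    · convert h3 using 1
      group

open H35.BN in
theorem letter_mem_of_conj_cell {G : Type*} [Group G] {Q : BNPair G} {M : Subgroup G}
    (hM : Q.B ≤ M) {i j : Q.S}
    (hne : (gens Q).s i * (gens Q).s j ≠ (gens Q).s j * (gens Q).s i) {x : G}
    (hx : x ∈ cell Q ((gens Q).s i)) (hmem : (j : G) * x * (j : G)⁻¹ ∈ M) : (j : G) ∈ M := by
  have hij : j ≠ i := by rintro rfl; exact hne rfl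
  have hlen := len_s_mul_s hij
  have h1 : (j : G) * x ∈ cell Q ((gens Q).s j * (gens Q).s i) :=
    cell_s_mul_mem_of_le (by rw [hlen, (exchange Q).len_s]; omega) (s_mem_cell j) hx
  have hred : (gens Q).IsRed [j, i] := by
    unfold H35.InvGen.IsRed; simpa using hlen
  rcases mul_cell_s_mem_cell (inv_mem_cell_s (s_mem_cell j)) h1 with h | h
  · have hred' : (gens Q).IsRed [i, j] := by
      unfold H35.InvGen.IsRed; simpa using len_s_mul_s hij.symm
    by_cases hle : (gens Q).len ((gens Q).s j * (gens Q).wp [i, j]) ≤ [i, j].length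
    · obtain ⟨a, t, c, hl, e⟩ := exchange Q j [i, j] hred' hle
      rcases a with _ | ⟨a₁, _ | ⟨a₂, a⟩⟩
      · simp only [List.nil_append, List.cons.injEq] at hl
        simp only [H35.InvGen.wp_nil, mul_one, one_mul] at e
        exact absurd ((gens_s_injective e).trans hl.1.symm) hij
      · simp only [List.cons_append, List.nil_append, List.cons.injEq] at hl
        obtain ⟨rfl, rfl, -⟩ := hl
        exact absurd (by simpa using e.symm) hne
      · simp at hl
    · have hred'' : (gens Q).IsRed [j, i, j] := hred'.cons (by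
        unfold H35.InvGen.IsRed at hred'; omega)
      exact letter_mem_of_mem hM hred'' (by simpa [mul_assoc] using h) hmem j (by simp)
  · exact letter_mem_of_mem hM hred (by simpa using h) hmem j (by simp)

section Par

variable {ι Φ : Type*} {S : SignedSys ι Φ} {G : Type*} [Group G] {P : Split S G} [Finite Φ]

theorem not_mem_Par_compl {k : ι} {n : G} (hn : n ∈ P.N) (e : P.ν n = S.s k) :
    n ∉ Par P {k}ᶜ := by
  rw [N_mem_Par_iff hn, e, S.s_mem_WJ_iff]
  simp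

theorem isCoatom_Par_compl (P : Split S G) (k : ι) : IsCoatom (Par P {k}ᶜ) := by
  choose m hm e using P.exists_s
  obtain ⟨Q, hB, -, hS⟩ := P.exists_bnPair m hm e
  refine ⟨fun h => not_mem_Par_compl (hm k) (e k) (h ▸ Subgroup.mem_top _), fun M hM => ?_⟩
  have hBM : P.B ≤ M := (B_le_Par _).trans hM.le
  by_cases hk : m k ∈ M
  · rw [eq_top_iff, ← Par_univ (P := P)]
    refine Par_le hBM fun j _ => ⟨m j, hm j, ?_, e j⟩
    by_cases hj : j = k
    · rwa [hj]
    · exact hM.le (mem_Par_of_ν (hm j) (by rw [e]; exact S.s_mem_WJ hj))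
  · refine absurd ?_ hM.not_ge
    rw [H35.BN.eq_parabolic_of_le (hB ▸ hBM : Q.B ≤ M), H35.BN.parabolic_le_iff, hB]
    refine ⟨B_le_Par _, ?_⟩
    rintro _ ⟨⟨s, hs⟩, hsM, rfl⟩
    rw [hS] at hs
    obtain ⟨j, rfl⟩ := hs
    refine mem_Par_of_ν (hm j) (by rw [e]; exact S.s_mem_WJ fun h => hk (h ▸ hsM))

/-- A normal subgroup of a maximal parabolic subgroup lying in the conjugate by the missing simple
reflection lies in the Borel subgroup. -/
theorem le_B_of_conj {k : ι}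
    (hc : ∀ I : Set ι, I.Nonempty → k ∉ I → ∃ i ∈ I, ∃ j ∉ I, S.s i * S.s j ≠ S.s j * S.s i)
    {n : G} (hn : n ∈ P.N) (en : P.ν n = S.s k) {K : Subgroup G} (hK : K ≤ Par P {k}ᶜ)
    (hN : ∀ g ∈ Par P {k}ᶜ, ∀ x ∈ K, g * x * g⁻¹ ∈ K) (h : ∀ x ∈ K, n * x * n⁻¹ ∈ Par P {k}ᶜ) :
    K ≤ P.B := by
  classical
  choose m₀ hm₀ e₀ using P.exists_s
  let m : ι → G := Function.update m₀ k n
  have hm : ∀ i, m i ∈ P.N := fun i => by
    by_cases hi : i = k
    · simp [m, hi, hn]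
    · simp [m, hi, hm₀]
  have e : ∀ i, P.ν (m i) = S.s i := fun i => by
    by_cases hi : i = k
    · simp [m, hi, en]
    · simp [m, hi, e₀]
  have mk : m k = n := by simp [m]
  obtain ⟨Q, hB, hQN, hS⟩ := P.exists_bnPair m hm e
  have hmS : ∀ i, m i ∈ Q.S := fun i => hS ▸ ⟨i, rfl⟩
  have hBM : Q.B ≤ K ⊔ P.B := hB ▸ le_sup_right
  have hle : K ⊔ P.B ≤ Par P {k}ᶜ := sup_le hK (B_le_Par _)
  rcases Set.eq_empty_or_nonempty {i | m i ∈ K ⊔ P.B} with h0 | h0
  · refine le_sup_left.trans (?_ : K ⊔ P.B ≤ P.B)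
    rw [H35.BN.eq_parabolic_of_le hBM, H35.BN.parabolic_le_iff, hB]
    refine ⟨le_rfl, ?_⟩
    rintro _ ⟨⟨s, hs⟩, hsM, rfl⟩
    rw [hS] at hs
    obtain ⟨j, rfl⟩ := hs
    exact absurd (show j ∈ {i | m i ∈ K ⊔ P.B} from hsM) (h0 ▸ Set.notMem_empty _)
  exfalso
  obtain ⟨i, hi, j, hj, hne⟩ := hc _ h0 fun hk => not_mem_Par_compl (hm k) (e k) (hle hk)
  have hne' : (H35.BN.gens Q).s ⟨m i, hmS i⟩ * (H35.BN.gens Q).s ⟨m j, hmS j⟩ ≠
      (H35.BN.gens Q).s ⟨m j, hmS j⟩ * (H35.BN.gens Q).s ⟨m i, hmS i⟩ := fun h' => by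
    rw [H35.BN.gens_s, H35.BN.gens_s, ← H35.BN.mkW_mul, ← H35.BN.mkW_mul, H35.BN.mkW_eq_iff,
      hB] at h'
    have h1 := mul_mem (hm i) (hm j)
    have h2 := mul_mem (hm j) (hm i)
    have h3 := ν_H (mem_H_of_B (mul_mem (inv_mem h1) h2) h')
    rw [P.ν_mul _ (inv_mem h1) _ h2, ν_inv h1, P.ν_mul _ (hm i) _ (hm j), P.ν_mul _ (hm j) _ (hm i),
      e, e, inv_mul_eq_one] at h3
    exact hne h3
  have hi' : m i ∈ ((K ⊔ P.B : Subgroup G) : Set G) := hi
  rw [Subgroup.coe_mul_of_right_le_normalizer_left K P.B fun b hb =>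
    Subgroup.mem_normalizer_iff.2 fun x => ⟨hN b (B_le_Par _ hb) x, fun hx => by
      simpa [mul_assoc] using hN b⁻¹ (B_le_Par _ (inv_mem hb)) _ hx⟩] at hi'
  obtain ⟨x, hx, b, hb, hxb⟩ := hi'
  have hxc : x ∈ H35.BN.cell Q ((H35.BN.gens Q).s ⟨m i, hmS i⟩) := by
    have := H35.BN.mul_mem_cell_right (Q.B.inv_mem (hB ▸ hb)) (H35.BN.s_mem_cell ⟨m i, hmS i⟩)
    simp only at hxb
    rwa [show ((⟨m i, hmS i⟩ : Q.S) : G) = x * b from hxb.symm, mul_inv_cancel_right] at this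
  by_cases hjk : j = k
  · subst hjk
    exact not_mem_Par_compl (hm j) (e j) (letter_mem_of_conj_cell (M := Par P {j}ᶜ)
      (hB ▸ B_le_Par _) hne' hxc (by simpa only [mk] using h x hx))
  · exact hj (letter_mem_of_conj_cell hBM hne' hxc (Subgroup.mem_sup_left
      (hN _ (mem_Par_of_ν (hm j) (by rw [e]; exact S.s_mem_WJ hjk)) x hx)))

end Par

section Lev

variable {ι Φ : Type*} [Fintype ι] [DecidableEq ι] [Finite Φ] {R : RS ι Φ} {G : Type*} [Group G]
  {P : Split (sgn R) G} (L : Lin P) (hL : ∀ r i, L.c r i = R.rc r i) (k : ι)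

/-- The roots of level at least `m`. -/
def levSet (R : RS ι Φ) (k : ι) (m : ℤ) : Set Φ := {r | m ≤ R.rc r k}

include hL

omit [Finite Φ] in
theorem y_single (r : Φ) : L.y (Pi.single k 1) r = R.rc r k := by
  simp [Coord.y, hL]

omit [Finite Φ] in
theorem F_eq_lev {m : ℤ} (hm : 0 < m) : L.F (Pi.single k 1) m = P.U (levSet R k m) := by
  unfold Lin.F
  congr 1
  ext r
  simp only [Set.mem_setOf_eq, y_single L hL, Int.cast_le, levSet]
  exact ⟨fun h => h.2, fun h => ⟨R.pos_of_coord_pos (j := k) (by omega), h⟩⟩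

omit [Finite Φ] in
theorem clo_lev {m : ℤ} (hm : 0 < m) {T : Set Φ} (hT : ∀ r ∈ T, R.rc r k = m) :
    Clo P (levSet R k m \ T) fun r => P.ht r := by
  intro r hr s hs x hx y hy
  have h1 : m ≤ R.rc r k := hr.1
  have h2 : m ≤ R.rc s k := hs.1
  refine U_sub (L.comm r s (R.pos_of_coord_pos (j := k) (by omega))
    (R.pos_of_coord_pos (j := k) (by omega)) x hx y hy) ?_
  rintro t ⟨h3, h4, -, a, b, ha, hb, e⟩
  have h5 := congrFun e k
  simp only [Pi.add_apply, Pi.smul_apply, hL, smul_eq_mul] at h5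
  have h6 : (m : ℝ) ≤ R.rc r k := by exact_mod_cast h1
  have h7 : (m : ℝ) ≤ R.rc s k := by exact_mod_cast h2
  have h8 : (0 : ℝ) < m := by exact_mod_cast hm
  have h9 : (m : ℝ) < R.rc t k := by nlinarith
  have h10 : m < R.rc t k := by exact_mod_cast h9
  exact ⟨⟨h10.le, fun h => by have := hT t h; omega⟩, Int.ofNat_lt.2 h3, Int.ofNat_lt.2 h4⟩

theorem conj_lev {m : ℤ} (hm : 0 < m) {g : G} (hg : g ∈ Par P {k}ᶜ) {x : G}
    (hx : x ∈ P.U (levSet R k m)) : g * x * g⁻¹ ∈ P.U (levSet R k m) := by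
  have hl : (0 : ι → ℝ) ≤ Pi.single k 1 := Pi.single_nonneg.2 zero_le_one
  have hm' : (0 : ℝ) ≤ (m : ℤ) := by exact_mod_cast hm.le
  obtain ⟨a, ha, n, hn, hw, u, hu, rfl⟩ := mem_Par_iff.1 hg
  have h1 : ∀ v ∈ P.Up, ∀ z ∈ P.U (levSet R k m), v * z * v⁻¹ ∈ P.U (levSet R k m) := by
    intro v hv z hz
    rw [← F_eq_lev L hL k hm] at hz ⊢
    exact L.conj_F hl hm' hv hz
  have h2 := h1 a ha _ (conj_U (A' := levSet R k m) hn (fun r hr => by
    change m ≤ _
    rwa [rc_WJ_of_not_mem R hw (by simp)]) (h1 u (Uinv_le_Up hu) x hx))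
  convert h2 using 1
  group

theorem le_lev_succ {m : ℤ} (hm : 0 < m) {K : Subgroup G} (hK : K ≤ P.U (levSet R k m))
    (hN : ∀ g ∈ Par P {k}ᶜ, ∀ x ∈ K, g * x * g⁻¹ ∈ K)
    (h : ∀ r, R.rc r k = m → (∃ j, j ≠ k ∧ 0 < R.wt r j) ∨ K ≤ P.U (levSet R k m \ {r})) :
    K ≤ P.U (levSet R k (m + 1)) := by
  have h1 : ∀ (N : ℕ) (r : Φ), R.ht r < N → R.rc r k = m → K ≤ P.U (levSet R k m \ {r}) := by
    intro N
    induction N with
    | zero =>
      intro r h1 h2
      have := (R.ht_pos_iff r).2 (R.pos_of_coord_pos (j := k) (by omega))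
      omega
    | succ N ih =>
      intro r h1 h2
      rcases h r h2 with ⟨j, hj, h3⟩ | h3
      swap
      · exact h3
      obtain ⟨n, hn, e⟩ := P.exists_s j
      have h4 : ∀ s, R.rc (R.σ j s) k = R.rc s k := fun s => R.rc_refl_of_ne hj.symm s
      have h5 := ih (R.σ j r) (by rw [R.ht_σ]; push_cast at h1; omega) (by rw [h4, h2])
      intro x hx
      have h6 := conj_U' (A' := levSet R k m \ {r}) hn (fun s hs => by
        rw [e]
        change (R.σ j)⁻¹ s ∈ _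
        rw [R.σ_inv]
        refine ⟨show m ≤ _ by rw [h4]; exact hs.1, fun h => hs.2 ?_⟩
        rw [Set.mem_singleton_iff] at h ⊢
        rw [← h, R.σ_σ])
        (h5 (hN n (mem_Par_of_ν hn (by rw [e]; exact (sgn R).s_mem_WJ hj)) x hx))
      convert h6 using 1
      group
  have hp : ∀ T : Set Φ, ∀ r ∈ levSet R k m \ T, (sgn R).pos r := fun T r hr =>
    R.pos_of_coord_pos (j := k) (by have : m ≤ R.rc r k := hr.1; omega)
  have h2 : ∀ T : Set Φ, T.Finite → (∀ r ∈ T, R.rc r k = m) → K ≤ P.U (levSet R k m \ T) := by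
    intro T hT
    induction T, hT using Set.Finite.induction_on with
    | empty => intro _; simpa using hK
    | @insert r T _ _ ih =>
      intro h3 x hx
      have h4 : ∀ s ∈ T, R.rc s k = m := fun s hs => h3 s (Set.mem_insert_of_mem _ hs)
      have h5 := h3 r (Set.mem_insert _ _)
      refine U_sub (mem_U_inter (clo_lev L hL k hm h4) (clo_lev L hL k hm (T := {r}) (by simpa))
        (hp _) (hp _) (ih h4 hx) (h1 (R.ht r + 1).toNat r (by omega) h5 hx)) ?_
      rintro s ⟨hs, hs'⟩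
      exact ⟨hs.1, fun h => h.elim hs'.2 hs.2⟩
  refine (h2 {r | R.rc r k = m} (Set.toFinite _) fun _ h => h).trans (U_mono ?_)
  rintro r ⟨h3, h4⟩
  have h5 : m ≤ R.rc r k := h3
  have h6 : R.rc r k ≠ m := h4
  change m + 1 ≤ _
  omega

theorem coreSeq_le (hH : ∀ h ∈ P.H, h = 1)
    (hc : ∀ I : Set ι, I.Nonempty → k ∉ I → ∃ i ∈ I, ∃ j ∉ I, R.σ i * R.σ j ≠ R.σ j * R.σ i)
    (h1 : ∀ r, R.rc r k = 1 → (∃ j, j ≠ k ∧ 0 < R.wt r j) ∨ r = R.simple k)
    {n : G} (hn : n ∈ P.N) (en : P.ν n = R.σ k) (i : ℕ) :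
    coreSeq (Par P {k}ᶜ) n (i + 1) ≤ P.U (levSet R k (i + 2)) := by
  have hN := fun (i : ℕ) (g : G) (hg : g ∈ Par P {k}ᶜ) (x : G)
    (hx : x ∈ coreSeq (Par P {k}ᶜ) n i) => coreSeq_conj i hg hx
  have h2 : ∀ i x, x ∈ coreSeq (Par P {k}ᶜ) n (i + 1) → x ∈ coreSeq (Par P {k}ᶜ) n i ∧
      n * x * n⁻¹ ∈ coreSeq (Par P {k}ᶜ) n i := fun i x hx => by
    simpa using (mem_coreSeq_succ.1 hx).2 1 (one_mem _)
  induction i with
  | zero =>
    have hB := le_B_of_conj (P := P) hc hn en (fun x hx => (h2 0 x hx).1) (hN 1)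
      fun x hx => (h2 0 x hx).2
    have hU : ∀ x ∈ coreSeq (Par P {k}ᶜ) n 1, x ∈ P.Up := fun x hx => by
      obtain ⟨u, hu, h, hh, rfl⟩ := mem_B.1 (hB hx)
      rwa [hH h hh, mul_one]
    have h3 : coreSeq (Par P {k}ᶜ) n 1 ≤ P.U (levSet R k 1) := fun x hx => by
      obtain ⟨w, hw, e⟩ := P.exists_lift ((sgn R).wJ_mem_W {k}ᶜ)
      have h4 := mem_U_pos_of_conj (sgn R).cl_pos hw (hU x hx)
        (hB (hN 1 w (mem_Par_of_ν hw (by rw [e]; exact (sgn R).wJ_mem _)) x hx))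
      refine U_sub h4 fun r hr => ?_
      rw [e] at hr
      have h5 := ((pos_not_mem_iff (S := sgn R) (J := {k}ᶜ) (r := r)).2 ⟨hr.1, hr.2⟩).2
      rw [mem_Phi_iff] at h5
      have h6 : 0 ≤ R.rc r k := hr.1 k
      have h7 : R.rc r k ≠ 0 := fun h => h5 fun j hj => by
        rwa [show j = k by simpa using hj]
      change 1 ≤ R.rc r k
      omega
    refine le_lev_succ L hL k one_pos h3 (hN 1) fun r hr => (h1 r hr).imp_right ?_
    rintro rfl x hx
    obtain ⟨c, hc', a, ha, e⟩ := dec (sgn R).cl_pos (R.σ k) (hU x hx)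
    have ha' : a ∈ P.X ((sgn R).α k) := U_le_X (fun s hs => by
      have := hs.2
      rwa [show R.σ k = (sgn R).s k from rfl, (sgn R).inv_s] at this) ha
    have h4 : n * a * n⁻¹ ∈ Par P {k}ᶜ := by
      have h5 : n * c * n⁻¹ ∈ P.Up := conj_U hn (fun r hr => by rw [en]; exact hr.2) hc'
      have h6 := mul_mem (inv_mem (Up_le_Par _ h5)) (h2 0 x hx).2
      rw [e] at h6
      convert h6 using 1
      group
    have h5 : a = 1 := by
      by_contra h0
      have h6 := P.conj n hn _ a ha'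
      rw [en] at h6
      change _ ∈ P.X (R.σ k (R.simple k)) at h6
      rw [R.σ_simple_self] at h6
      obtain ⟨b, hb, m, hm, b', hb', em, e'⟩ := P.sl2 k _ h6 (by
        rwa [Ne, mul_inv_eq_one, mul_eq_left])
      have h7 : ∀ y ∈ P.X ((sgn R).α k), y ∈ Par P {k}ᶜ := fun y hy =>
        Up_le_Par _ (mem_U (R.pos_simple k) hy)
      refine not_mem_Par_compl hm em ?_
      have := mul_mem (mul_mem (inv_mem (h7 b hb)) h4) (inv_mem (h7 b' hb'))
      rw [e'] at this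
      convert this using 1
      group
    rw [h5, mul_one] at e
    subst e
    refine U_sub (mem_U_inter (clo_lev L hL k one_pos (T := ∅) (by simp))
      (clo_of_cl ((sgn R).cl_pos.inter_pos ((sgn R).s_mem_W k)))
      (fun r hr => R.pos_of_coord_pos (j := k) (by have : 1 ≤ R.rc r k := hr.1; omega))
      (fun r hr => hr.1) (by simpa using h3 hx) hc') ?_
    rintro r ⟨hr, hr'⟩
    refine ⟨hr.1, fun h => ?_⟩
    rw [Set.mem_singleton_iff] at h
    have := hr'.2
    rw [h] at this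
    change R.Pos (R.σ k (R.simple k)) at this
    rw [R.σ_simple_self] at this
    exact R.not_pos_neg_simple k this
  | succ i ih =>
    have hm : (0 : ℤ) < i + 2 := by omega
    have := le_lev_succ L hL k hm (K := coreSeq (Par P {k}ᶜ) n (i + 2))
      (fun x hx => ih (h2 _ x hx).1) (hN _) fun r hr => ?_
    · convert this using 3
      push_cast
      ring
    obtain ⟨j, -, hj⟩ := (R.pos_of_coord_pos (r := r) (j := k) (by omega)).exists_wt_pos
    by_cases hjk : j = k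
    swap
    · exact Or.inl ⟨j, hjk, hj⟩
    subst hjk
    refine Or.inr fun x hx => ?_
    have h3 := ih (h2 _ x hx).1
    have h4 := ih (h2 _ x hx).2
    have hm' : (0 : ℝ) ≤ ((i + 2 : ℤ) : ℝ) := by exact_mod_cast hm.le
    rw [← F_eq_lev L hL j hm] at h4
    have h5 := L.mem_F_of_conj hm' (inv_mem hn) (g := x) (U_sub h3 fun r hr =>
      R.pos_of_coord_pos (j := j) (by have : (i : ℤ) + 2 ≤ R.rc r j := hr; omega))
      (by rwa [inv_inv])
    refine U_sub (mem_U_inter (clo_lev L hL j hm (T := ∅) (by simp)) (L.clo_F _ hm')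
      (fun r hr => R.pos_of_coord_pos (j := j) (by have : (i : ℤ) + 2 ≤ R.rc r j := hr.1; omega))
      (fun r hr => hr.1) (by simpa using h3) h5) ?_
    rintro s ⟨hs, -, hs'⟩
    refine ⟨hs.1, fun h => ?_⟩
    rw [Set.mem_singleton_iff] at h
    rw [ν_inv hn, inv_inv, en, L.y_act (w := R.σ j) ((sgn R).s_mem_W j), y_single L hL, h, Int.cast_le] at hs'
    change _ ≤ R.rc (R.refl j r) j at hs'
    rw [R.rc_refl_self] at hs'
    omega

theorem le_coreSeq (h1 : ∀ r, r ≠ R.simple k → R.wt r k ≤ 1)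
    {n : G} (hn : n ∈ P.N) (en : P.ν n = R.σ k) (i : ℕ) :
    P.U (levSet R k (i + 1)) ≤ coreSeq (Par P {k}ᶜ) n i := by
  have h0 : ∀ m : ℤ, 0 < m → P.U (levSet R k m) ≤ Par P {k}ᶜ := fun m hm =>
    (U_mono fun r hr => R.pos_of_coord_pos (j := k) (by have : m ≤ R.rc r k := hr; omega)).trans
      (Up_le_Par _)
  induction i with
  | zero => exact h0 _ (by simp)
  | succ i ih =>
    intro x hx
    refine mem_coreSeq_succ.2 ⟨h0 _ (by omega) hx, fun g hg => ?_⟩
    have h2 := conj_lev L hL k (by omega) hg hx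
    refine ⟨ih (U_sub h2 fun r hr => ?_), ih (conj_U hn (fun r hr => ?_) h2)⟩
    · have : ((i + 1 : ℕ) : ℤ) + 1 ≤ R.rc r k := hr
      change (i : ℤ) + 1 ≤ R.rc r k
      omega
    · have h3 : ((i + 1 : ℕ) : ℤ) + 1 ≤ R.rc r k := hr
      have h4 := h1 r (by
        rintro rfl
        rw [R.rc_simple] at h3
        simp at h3
        omega)
      rw [en]
      change _ ≤ R.rc (R.refl k r) k
      rw [R.rc_refl_self]
      omega

end Lev

section E8

open Cfsg.Lie

/-- The coefficient of the branch node, from the Cartan integers. -/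
def levE8 (r : ℕ) : ℤ := 10 * chevE8.cartan 0 r + 15 * chevE8.cartan 1 r + 20 * chevE8.cartan 2 r +
  30 * chevE8.cartan 3 r + 24 * chevE8.cartan 4 r + 18 * chevE8.cartan 5 r +
  12 * chevE8.cartan 6 r + 6 * chevE8.cartan 7 r

theorem rc_E8 (C : Cert chevE8) (r : Fin 240) : C.R.rc r (3 : Fin 8) = levE8 r := by
  have h : ∀ i : Fin 8, chevE8.cartan i r =
      ∑ j : Fin 8, C.R.rc r j * (cartE8.getD i []).getD j 0 := fun i => by
    refine (C.wt_eq r i).symm.trans ((C.R.wt_def r i).trans ?_)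
    exact Finset.sum_congr rfl fun j _ => congrArg _ ((isCartan_E8 C).eq i j)
  have h0 := h 0
  have h1 := h 1
  have h2 := h 2
  have h3 := h 3
  have h4 := h 4
  have h5 := h 5
  have h6 := h 6
  have h7 := h 7
  simp only [Fin.sum_univ_eight, cartE8] at h0 h1 h2 h3 h4 h5 h6 h7
  simp at h0 h1 h2 h3 h4 h5 h6 h7
  unfold levE8
  omega

theorem levE8_spec : ∀ r < 240, levE8 r ≤ 6 ∧ (r = 130 ∨ chevE8.cartan 3 r ≤ 1) ∧
    (levE8 r = 1 → (∃ j < 8, j ≠ 3 ∧ 0 < chevE8.cartan j r) ∨ r = 130) := by decide +kernel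

theorem levE8_top : levE8 239 = 6 := by decide +kernel

theorem exists_coreSeq_E8 : ∃ (G : Type) (_ : Group G) (_ : Finite G) (M : Subgroup G) (n : G),
    IsCoatom M ∧ n ∉ M ∧ n * n ∈ M ∧ Subgroup.normalizer (M : Set G) = M ∧
      coreSeq M n 6 = ⊥ ∧ coreSeq M n 5 ≠ ⊥ := by
  let C : Cert chevE8 := cert (by simp)
  let P := C.split (ZMod 2)
  let k : Fin 8 := 3
  have hL : ∀ r i, (chevLin C (ZMod 2)).c r i = C.R.rc r i := rsCoord1_c C.R
  have hs : ∀ r : Fin 240, (r : ℕ) = 130 → r = C.R.simple k := fun r h =>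
    Fin.ext (h.trans (C.simple_val k).symm)
  obtain ⟨n, hn, en⟩ := P.exists_s k
  refine ⟨chevE8.group (ZMod 2), inferInstance, inferInstance, Par P {k}ᶜ, n,
    isCoatom_Par_compl P k, not_mem_Par_compl hn en, ?_, ?_, ?_, ?_⟩
  · refine H_le_Par _ (mem_H_of (mul_mem hn hn) ?_)
    rw [P.ν_mul _ hn _ hn, en]
    exact C.R.σ_mul_self k
  · choose m hm e using P.exists_s
    obtain ⟨Q, hB, -, -⟩ := P.exists_bnPair m hm e
    exact H35.BN.normalizer_eq_of_le (P := Q) (hB ▸ B_le_Par _)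
  · refine eq_bot_iff.2 ((coreSeq_le (chevLin C (ZMod 2)) hL k ?_ ?_ ?_ hn en 5).trans ?_)
    · intro h hh
      obtain ⟨c, rfl⟩ := (mem_H_iff C).1 hh
      have h1 : ∀ u : (ZMod 2)ˣ, u = 1 := by decide
      rw [show c = 1 from funext fun i => h1 _, map_one]
    · intro I h1 h2
      classical
      obtain ⟨j, hj, i, hi, h⟩ := chev_conn (by simp) C I.toFinset (by simpa)
        ⟨k, Finset.mem_compl.2 fun h => h2 (Set.mem_toFinset.1 h)⟩
      simp only [Set.mem_toFinset] at hi hj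
      exact ⟨i, hi, j, hj, σ_not_comm C.R (fun e => hj (e ▸ hi)) h⟩
    · intro r hr
      rcases (levE8_spec r r.2).2.2 ((rc_E8 C r).symm.trans hr) with ⟨j, hj, h1, h2⟩ | h
      · exact Or.inl ⟨⟨j, hj⟩, fun h => h1 (congrArg Fin.val h), by rwa [C.wt_eq]⟩
      · exact Or.inr (hs r h)
    · intro x hx
      refine eq_one_of_mem_U (fun r hr => ?_) hx
      have h1 : ((5 : ℕ) : ℤ) + 2 ≤ C.R.rc r k := hr
      have h2 := (levE8_spec r r.2).1
      rw [rc_E8 C r] at h1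
      omega
  · intro h
    obtain ⟨x, hx, hx1⟩ := P.X_ne_one (239 : Fin 240)
    refine hx1 (Subgroup.mem_bot.1 (h ▸ le_coreSeq (chevLin C (ZMod 2)) hL k ?_ hn en 5
      (mem_U ?_ hx)))
    · intro r hr
      exact (C.wt_eq r k).trans_le ((levE8_spec r r.2).2.1.resolve_left fun h => hr (hs r h))
    · change ((5 : ℕ) : ℤ) + 1 ≤ C.R.rc (239 : Fin 240) (3 : Fin 8)
      rw [rc_E8 C]
      exact levE8_top.ge

end E8

end Cfsg.Agent.H31
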