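import Cfsg.Agent.H2.FXDefs

/-! A rank inequality for two idempotents and a nilpotent skew endomorphism. -/

set_option autoImplicit false

namespace Cfsg.Agent.H31.FXLin

open Module LinearMap

theorem lin : H2FX.LinStmt := by
  intro F W _ _ _ _ B e p M hB hp hM ep pe ee pp eM h M3 inj
  have ap : ∀ {f g : End F W}, f = g → ∀ v, f v = g v := fun h v => by rw [h]
  have fx : ∀ v : range p, p v = v := by
    rintro ⟨_, v, rfl⟩
    exact ap pp v
  have h1 : p * M = M * (e - p) := by rw [mul_sub, ← h, add_sub_cancel_right]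
  have h2 : p * M * p = 0 := by rw [h1, mul_assoc, sub_mul, ep, pp, sub_self, mul_zero]
  have h3 : (e - p) * (M * p) = M * p := by
    rw [sub_mul, ← mul_assoc, ← mul_assoc, h2, eM, mul_assoc, ep, sub_zero]
  have h4 : ∀ v, M (M (p v)) = 0 := fun v => inj _
    (ap (show p * M * (M * p) = M * (M * p) by rw [h1, mul_assoc, h3]) v)
    (ap (show M * M * M = 0 by rw [← pow_three', M3]) (p v))
  let D := M.domRestrict (range (e - p))
  have k1 := D.finrank_range_add_finrank_ker
  have k2 : finrank F (range p) ≤ finrank F (ker D) := by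
    let f : range p →ₗ[F] range (e - p) := (M ∘ₗ (range p).subtype).codRestrict _ fun v =>
      ⟨M v, show (e - p) (M v) = M v by rw [← fx v]; exact ap h3 v⟩
    refine finrank_le_finrank_of_injective (f := f.codRestrict (ker D) fun v => ?_)
      ((injective_iff_map_eq_zero _).2 fun v hv => Subtype.ext (inj _ (fx v) ?_))
    · change M (M v) = 0
      rw [← fx v]
      exact h4 v
    · exact congrArg (fun x => x.1.1) hv
  have k3 : finrank F (range p) ≤ finrank F (range D) := by
    rw [← Subspace.dual_finrank_eq (V := range D)]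
    refine finrank_le_finrank_of_injective (f := B.compl₁₂ (range p).subtype (range D).subtype)
      ((injective_iff_map_eq_zero _).2 fun v hv => Subtype.ext (inj _ (fx v) (hB _ fun w => ?_)))
    have : B v (M ((e - p) w)) = 0 :=
      LinearMap.congr_fun hv ⟨M ((e - p) w), ⟨_, w, rfl⟩, rfl⟩
    rw [show M ((e - p) w) = p (M w) from (ap h1 w).symm, ← hp, fx] at this
    rw [hM, this, neg_zero]
  have k4 := Submodule.finrank_sup_add_finrank_inf_eq (range p) (range (e - p))
  have k5 : range p ⊓ range (e - p) = ⊥ := eq_bot_iff.2 fun v hv => by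
    obtain ⟨w, hw⟩ := hv.2
    rw [Submodule.mem_bot, ← show p v = v from fx ⟨v, hv.1⟩, ← hw]
    exact ap (show p * (e - p) = 0 by rw [mul_sub, pe, pp, sub_self]) w
  have k6 : finrank F (range p ⊔ range (e - p) : Submodule F W) ≤ finrank F (range e) := by
    refine Submodule.finrank_mono (sup_le ?_ ?_)
    · rintro _ ⟨v, rfl⟩
      exact ⟨_, ap ep v⟩
    · rintro _ ⟨v, rfl⟩
      exact ⟨_, ap (show e * (e - p) = e - p by rw [mul_sub, ee, ep]) v⟩
  rw [k5, finrank_bot] at k4
  omega

end Cfsg.Agent.H31.FXLin
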