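import Cfsg.Agent.H42.FvDefs

/-! Polynomials with a diagonal invertible linear part are algebraically independent. -/

set_option autoImplicit false

namespace Cfsg.Agent.H31.FvAlgInd

open MvPolynomial

theorem sub_mem_pow {R : Type*} [CommRing R] (I : Ideal R) (f : R →+* R) (h0 : ∀ x, f x - x ∈ I)
    (h1 : ∀ y ∈ I, f y - y ∈ I ^ 2) (n : ℕ) : ∀ x ∈ I ^ n, f x - x ∈ I ^ (n + 1) := by
  induction n with
  | zero => exact fun x _ => by simpa using h0 x
  | succ n ih =>
    intro x hx
    rw [pow_succ] at hx
    refine Submodule.mul_induction_on hx (fun x hx y hy => ?_) fun x y hx hy => ?_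
    · rw [show f (x * y) - x * y = (f x - x) * (f y - y + y) + x * (f y - y) by
        rw [map_mul]; ring]
      refine add_mem ?_ ?_
      · rw [pow_succ]
        exact Ideal.mul_mem_mul (ih x hx) (add_mem (h0 y) hy)
      · rw [add_assoc, pow_add]
        exact Ideal.mul_mem_mul hx (h1 y hy)
    · rw [map_add, add_sub_add_comm]
      exact add_mem hx hy

theorem core {σ F : Type*} [CommRing F] (P : σ → MvPolynomial σ F)
    (h : ∀ i, P i - X i ∈ idealOfVars σ F ^ 2) : AlgebraicIndependent F P := by
  have h0 : ∀ x, aeval P x - x ∈ idealOfVars σ F := fun x => by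
    induction x using MvPolynomial.induction_on with
    | C a => simp
    | add p q hp hq =>
      rw [map_add, add_sub_add_comm]
      exact add_mem hp hq
    | mul_X p i hp =>
      rw [show aeval P (p * X i) - p * X i = (aeval P p - p) * P i + p * (P i - X i) by
        rw [map_mul, aeval_X]; ring]
      exact add_mem (Ideal.mul_mem_right _ _ hp)
        (Ideal.mul_mem_left _ _ (Ideal.pow_le_self two_ne_zero (h i)))
  have h1 : ∀ y ∈ idealOfVars σ F, aeval P y - y ∈ idealOfVars σ F ^ 2 := fun y hy => by
    induction hy using Submodule.span_induction with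
    | mem x hx =>
      obtain ⟨i, rfl⟩ := hx
      rw [aeval_X]
      exact h i
    | zero => simp
    | add p q _ _ hp hq =>
      rw [map_add, add_sub_add_comm]
      exact add_mem hp hq
    | smul r y hy ih =>
      rw [smul_eq_mul, show aeval P (r * y) - r * y =
        (aeval P r - r) * (aeval P y - y + y) + r * (aeval P y - y) by rw [map_mul]; ring]
      refine add_mem ?_ (Ideal.mul_mem_left _ _ ih)
      rw [pow_two]
      exact Ideal.mul_mem_mul (h0 r) (add_mem (h0 y) hy)
  refine algebraicIndependent_iff.2 fun Q hQ => ?_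
  have k : ∀ n, Q ∈ idealOfVars σ F ^ n := fun n => by
    induction n with
    | zero => simp
    | succ n ih =>
      have := sub_mem_pow _ (aeval P : MvPolynomial σ F →ₐ[F] _).toRingHom h0 h1 n Q ih
      change aeval P Q - Q ∈ _ at this
      rwa [hQ, zero_sub, neg_mem_iff] at this
  ext x
  exact (mem_pow_idealOfVars_iff' _ Q).1 (k _) x (Nat.lt_succ_self _)

theorem gen {σ F : Type*} [Field F] (P : σ → MvPolynomial σ F) (c a : σ → F) (ha : ∀ i, a i ≠ 0)
    (h : ∀ i, P i - C (c i) - C (a i) * X i ∈ idealOfVars σ F ^ 2) : AlgebraicIndependent F P := by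
  have e : ∀ i, (C (a i) : MvPolynomial σ F) * C (a i)⁻¹ = 1 := fun i => by
    rw [← C_mul, mul_inv_cancel₀ (ha i), C_1]
  have h1 : AlgebraicIndependent F fun i => C (a i)⁻¹ * (P i - C (c i)) := core _ fun i => by
    convert Ideal.mul_mem_left _ (C (a i)⁻¹) (h i) using 1
    linear_combination X i * e i
  have k : ∀ (Q : σ → MvPolynomial σ F) i,
      aeval (fun i => C (a i)⁻¹ * (Q i - C (c i))) (C (a i) * X i + C (c i)) = Q i := fun Q i => by
    rw [map_add, map_mul, aeval_X, aeval_C, aeval_C, algebraMap_eq]
    linear_combination (Q i - C (c i)) * e i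
  have h2 : AlgebraicIndependent F fun i => (C (a i) * X i + C (c i) : MvPolynomial σ F) := by
    refine AlgebraicIndependent.of_aeval
      (x := fun i => (C (a i)⁻¹ * (X i - C (c i)) : MvPolynomial σ F)) ?_
    simp only [k]
    exact MvPolynomial.algebraicIndependent_X σ F
  simpa only [k] using h1.aeval_of_algebraicIndependent h2

theorem algInd : H42.Fv.AlgIndStmt := fun _ _ P c a ha h => gen P c a ha h

end Cfsg.Agent.H31.FvAlgInd
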