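import Mathlib
import Cfsg.Agent.H73.GK2
import Cfsg.Agent.H73.OutSU
import Cfsg.Agent.H31.HermGrow
import Cfsg.Agent.H31.HermStd

/-! The prime graph data for the unitary groups. -/

set_option autoImplicit false

namespace Cfsg.Agent.H31.GKU

open Module Matrix Subgroup H73 H73.GK

section Abstract

variable {F : Type*} [Field F] {σ : F →+* F} {V : Type*} [AddCommGroup V] [Module F V]
  {B : V →ₛₗ[σ] V →ₗ[F] F}

theorem commute_rk1 {g x : V ≃ₗ[F] V} {v : V} {c : F} (hg : ∀ z, g z = z + (c * B v z) • v)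
    (hx : x ∈ isom B) (hv : x v = v) : Commute g x := by
  ext z
  rw [LinearEquiv.mul_apply, LinearEquiv.mul_apply, hg, hg, map_add, map_smul, hv]
  conv_lhs => rw [← hv]
  rw [hx, hv]

theorem refl_sq {g : V ≃ₗ[F] V} {v : V} (hv : B v v = 1)
    (hg : ∀ z, g z = z + ((-1 - 1) / B v v * B v z) • v) : g ^ 2 = 1 := by
  ext z
  rw [sq, LinearEquiv.mul_apply, hg, hg, map_add, map_smul, hv, add_assoc, ← add_smul]
  simp only [smul_eq_mul, div_one, mul_one, LinearEquiv.coe_one, id_eq]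
  rw [show (-1 - 1) * B v z + (-1 - 1) * (B v z + (-1 - 1) * B v z) = 0 by ring, zero_smul, add_zero]

variable [Finite F] [FiniteDimensional F V]

/-- An element of order `s` of the special unitary group that fixes a non-isotropic vector. -/
theorem exists_good (h : IsHerm B) (h3 : 3 ≤ finrank F V) {s : ℕ} (hs : s.Prime)
    (hc : s = 2 ∨ ¬ SylCyc (sisom B) s) :
    ∃ x ∈ sisom B, x ≠ 1 ∧ x ^ s = 1 ∧ ∃ v, B v v ≠ 0 ∧ x v = v := by
  have h3' : 3 ≤ finrank F (⊤ : Submodule F V) := by rwa [finrank_top]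
  by_cases hp : (s : F) = 0
  · obtain ⟨u, -, hu0, hu⟩ := h.exists_isotropic h.nondegOn_top (by omega)
    obtain ⟨c, hc0, hc⟩ := h.inv.exists_skew'
    obtain ⟨v, -, hv, hvu⟩ := h.exists_nonisotropic_perp h.nondegOn_top (x := u) trivial (.inl h3')
    refine ⟨tv B u c hu hc, h.tv_mem_sisom hu hc, fun e => ?_, ?_, v, hv,
      tv_apply_of_perp hu hc (h.flip_zero hvu)⟩
    · obtain ⟨y, hy⟩ := h.exists_ne_zero hu0
      have := LinearEquiv.congr_fun e y
      rw [tv_apply, LinearEquiv.coe_one, id_eq, add_eq_left, smul_eq_zero] at this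
      exact this.elim (mul_ne_zero hc0 hy) hu0
    · have key : ∀ (k : ℕ) (z : V), (tv B u c hu hc ^ k) z = z + ((k : F) * c * B u z) • u := by
        intro k
        induction k with
        | zero => simp
        | succ k ih =>
          intro z
          rw [pow_succ', LinearEquiv.mul_apply, ih, tv_apply, map_add, map_smul, hu, add_assoc,
            ← add_smul]
          congr 2
          simp only [smul_eq_mul, Nat.cast_succ]
          ring
      ext z
      simp [key, hp]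
  by_cases h2 : s = 2
  · subst h2
    obtain ⟨b, -, hb⟩ := h.exists_isON_of_nondegOn h.nondegOn_top h3'
    have n1 : ∀ i, B (b i) (b i) = 1 := fun i => by simpa using hb i i
    have hm : (-1 : F) * σ (-1) = 1 := by simp
    obtain ⟨g, g1, g2, g3, g4⟩ := h.exists_quasiRefl (v := b 1) (by simp [n1]) hm
    obtain ⟨k, k1, k2, k3, k4⟩ := h.exists_quasiRefl (v := b 2) (by simp [n1]) hm
    have e1 : k (b 1) = b 1 := k4 _ (by simpa using hb 2 1)
    refine ⟨g * k, mem_sisom'.2 ⟨mul_mem g1 k1, ?_⟩, fun e => ?_, ?_, b 0, by simp [n1], ?_⟩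
    · rw [LinearEquiv.coe_toLinearMap_mul, map_mul, det_of_rk1 g2, det_of_rk1 k2, n1, n1]
      ring
    · have := LinearEquiv.congr_fun e (b 1)
      rw [LinearEquiv.mul_apply, e1, g3, LinearEquiv.coe_one, id_eq] at this
      have := congrArg (B (b 1)) this
      rw [map_smul, n1, smul_eq_mul, mul_one] at this
      exact hp (by push_cast; linear_combination -this)
    · rw [(commute_rk1 g2 k1 e1).mul_pow, refl_sq (n1 1) g2, refl_sq (n1 2) k2, mul_one]
    · rw [LinearEquiv.mul_apply, k4 _ (by simpa using hb 2 0), g4 _ (by simpa using hb 1 0)]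
  have : Finite V := Module.finite_of_finite F
  have : Finite (V ≃ₗ[F] V) := Finite.of_injective _ DFunLike.coe_injective
  obtain ⟨x, y, -, hx, -, v, hv, hy⟩ := dec (sisom B).subtype Subtype.val_injective hs h2 hp
    (hc.resolve_left h2)
  have hxs : x.1 ^ s = 1 := by rw [← coe_pow, ← hx, pow_orderOf_eq_one, coe_one]
  have hx1 : x.1 ≠ 1 := fun e => hs.one_lt.ne' (by rw [← hx, orderOf_eq_one_iff]; exact Subtype.ext e)
  have hc := isCompl_fix (x := (x.1 : V →ₗ[F] V)) (s := s) (by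
    ext z
    rw [Module.End.pow_apply, LinearEquiv.coe_coe, ← LinearEquiv.pow_apply, hxs]; rfl) hp
  have mem : ∀ w, w ∈ LinearMap.ker ((x.1 : V →ₗ[F] V) - 1) ↔ x.1 w = w := fun w => by
    simp [sub_eq_zero]
  have nd : NondegOn B (LinearMap.ker ((x.1 : V →ₗ[F] V) - 1)) := fun w hw hw' => by
    refine h.nondeg w fun z => ?_
    obtain ⟨a, ha, _, ⟨d, rfl⟩, rfl⟩ := Submodule.mem_sup.1 (hc.sup_eq_top ▸ Submodule.mem_top (x := z))
    have := (sisom_le_isom x.2) w d
    rw [(mem w).1 hw] at this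
    simp [hw' a ha, this]
  obtain ⟨w, hw, hw0⟩ := h.exists_norm_ne_zero nd fun e => hy (by
    have : v = 0 := (Submodule.mem_bot F).1 (e ▸ (mem v).2 hv)
    rw [this, map_zero])
  exact ⟨x, x.2, hx1, hxs, w, hw0, (mem w).1 hw⟩

end Abstract

variable {F : Type} [Field F] [Fintype F] {n q : ℕ} (hF : Fintype.card F = q ^ 2) (hn : 3 ≤ n)
include hF hn

theorem orderOf_mk {s : ℕ} (hs : s.Prime) {x : SU n F q} (h1 : x ≠ 1) (hx : x ^ s = 1)
    {v : Fin n → F} (h0 : v ≠ 0)
    (hv : ((x : SpecialLinearGroup (Fin n) F) : Matrix (Fin n) (Fin n) F) *ᵥ v = v) :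
    orderOf (x : PSU n F q) = s := by
  refine orderOf_mk_eq hs (hx ▸ one_mem _) fun hc => h1 ?_
  have e := (clsU hF hn).diag_j x
  rw [(QuotientGroup.eq_one_iff x).2 hc, map_one, Cls.diag_eq_one_iff] at e
  obtain ⟨u, hu⟩ := e
  have hu' : ((x : SpecialLinearGroup (Fin n) F) : Matrix (Fin n) (Fin n) F) = (u : F) • 1 := by
    rw [Matrix.smul_one_eq_diagonal]
    exact congrArg Units.val hu
  rw [hu', smul_mulVec, one_mulVec] at hv
  have : (u : F) = 1 := by
    by_contra hne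
    exact h0 ((smul_eq_zero.1 (show ((u : F) - 1) • v = 0 by rw [sub_smul, hv, one_smul, sub_self])).resolve_left
      (sub_ne_zero.2 hne))
  apply Subtype.ext
  apply Subtype.ext
  rw [hu', this, one_smul]
  rfl

theorem exists_good_SU {s : ℕ} (hs : s.Prime) (hc : s = 2 ∨ ¬ SylCyc (PSU n F q) s) :
    ∃ x : SU n F q, orderOf (x : PSU n F q) = s ∧ ∃ v, hermB hF n v v ≠ 0 ∧
      ((x : SpecialLinearGroup (Fin n) F) : Matrix (Fin n) (Fin n) F) *ᵥ v = v := by
  obtain ⟨x, hx, h1, h2, v, hv, e⟩ := exists_good (isHerm_hermB hF n) (by rwa [finrank_fin]) hs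
    (hc.imp_right fun h k => h ((k.of_inj (suEquiv hF n).toMonoidHom (suEquiv hF n).injective).quot hs _))
  have e' := (suEquiv_symm_mulVec hF ⟨x, hx⟩ v).trans e
  refine ⟨(suEquiv hF n).symm ⟨x, hx⟩, orderOf_mk hF hn hs (fun k => h1 ?_) ?_
    (fun k => hv (by rw [k, map_zero])) e', v, hv, e'⟩
  · exact congrArg Subtype.val ((MulEquiv.map_eq_one_iff _).1 k)
  · rw [← map_pow, MulEquiv.map_eq_one_iff]
    exact Subtype.ext h2

theorem dvd_card {t : ℕ} (ht : t.Prime) (hle : t ≤ n) : t ∣ Nat.card (PSU n F q) := by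
  by_cases h2 : t = 2
  · obtain ⟨x, hx, -⟩ := exists_good_SU hF hn ht (.inl h2)
    exact hx ▸ orderOf_dvd_natCard _
  have := Fact.mk ht
  obtain ⟨π, hπ⟩ := exists_prime_orderOf_dvd_card' (G := Equiv.Perm (Fin n)) t (by
    rw [Nat.card_perm, Nat.card_eq_fintype_card, Fintype.card_fin]
    exact ht.dvd_factorial.2 hle)
  have hπt : π ^ t = 1 := hπ ▸ pow_orderOf_eq_one π
  have hsign : Equiv.Perm.sign π = 1 := by
    have := congrArg Equiv.Perm.sign hπt
    rw [map_pow, map_one] at this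
    rcases Int.units_eq_one_or (Equiv.Perm.sign π) with h | h
    · exact h
    · rw [h, (ht.odd_of_ne_two h2).neg_one_pow] at this
      exact absurd this (by decide)
  let M : Matrix (Fin n) (Fin n) F := permMatrixHom π
  have hM : ∀ v, M *ᵥ v = v ∘ ⇑π⁻¹ := fun v => permMatrix_mulVec _
  let x : SU n F q := ⟨⟨M, by
    change det (Equiv.Perm.permMatrix F π⁻¹) = 1
    rw [det_permutation, map_inv, hsign]; simp⟩, (mem_SU_iff hF).2 fun u v => by
      change hermB hF n (M *ᵥ u) (M *ᵥ v) = _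
      rw [hM, hM, stdB_apply, stdB_apply]
      exact Equiv.sum_comp π⁻¹ fun i => frobQ hF (u i) * v i⟩
  have hx : orderOf (x : PSU n F q) = t := by
    refine orderOf_mk hF hn ht (fun e => ?_) ?_ (v := fun _ => 1) (fun e => ?_) (hM _)
    · have e1 : M = 1 := congrArg (fun z : SU n F q => (z.1 : Matrix (Fin n) (Fin n) F)) e
      refine ht.one_lt.ne' (hπ ▸ orderOf_eq_one_iff.2 (inv_eq_one.1 (Equiv.ext fun i => ?_)))
      have := congrFun (hM (Pi.single i 1)) i
      rw [e1, one_mulVec, Pi.single_eq_same, Function.comp_apply] at this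
      by_contra hne
      rw [Pi.single_eq_of_ne (show π⁻¹ i ≠ i from hne)] at this
      exact one_ne_zero this
    · apply Subtype.ext
      apply Subtype.ext
      change M ^ t = 1
      rw [← map_pow, hπt, map_one]
    · exact one_ne_zero (congrFun e ⟨0, by omega⟩)
  exact hx ▸ orderOf_dvd_natCard _

theorem fix_diag (g : linPart (gamU n F q)) {s : ℕ} (hs : s.Prime) (hc : ¬ SylCyc (PSU n F q) s) :
    ∃ a : MulAut (PSU n F q), (a : Out (PSU n F q)) = ((clsU hF hn).diag g : MulAut (PSU n F q)) ∧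
      ∃ x : PSU n F q, orderOf x = s ∧ a x = x := by
  obtain ⟨x, hx, v, hv, e⟩ := exists_good_SU hF hn hs (.inr hc)
  have h := isHerm_hermB hF n
  have hg : glEquiv (Fin n) F g.1 ∈ isom (hermB hF n) := (mem_GU_iff hF).2 g.2
  obtain ⟨r, r1, r2, -⟩ := h.exists_quasiRefl hv (h.det_norm hg)
  have rd : LinearEquiv.det r = GeneralLinearGroup.det g.1 := by
    rw [← det_glEquiv]
    apply Units.ext
    rw [LinearEquiv.coe_det, LinearEquiv.coe_det, det_of_rk1 r2]
    field_simp
    ring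
  let k : linPart (gamU n F q) := ⟨(glEquiv (Fin n) F).symm r, (mem_GU_iff hF).1 (by simpa using r1)⟩
  have kd : GeneralLinearGroup.det k.1 = GeneralLinearGroup.det g.1 := by
    rw [← det_glEquiv, ← rd]
    simp [k]
  refine ⟨(clsU hF hn).diag k, ?_, x, hx, ?_⟩
  · rw [QuotientGroup.eq, ← map_inv, ← map_mul, Cls.diag_mem_inn_iff]
    obtain ⟨z, hz⟩ := (exists_suToGL_eq (q := q) (g := (k⁻¹ * g).1)).2 ⟨(k⁻¹ * g).2, by simp [kd]⟩
    exact ⟨1, z, by simp [hz]⟩
  · refine ((clsU hF hn).eq_diag_iff k _).1 rfl x x ?_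
    have c : Commute r (suEquiv hF n x).1 := commute_rk1 r2 (sisom_le_isom (suEquiv hF n x).2) e
    have c2 : k.1 * suToGL n F q x = suToGL n F q x * k.1 := by
      apply (glEquiv (Fin n) F).injective
      rw [map_mul, map_mul, MulEquiv.apply_symm_apply]
      exact c.eq
    rw [← Units.val_mul, ← Units.val_mul, c2, mul_inv_cancel_right]

theorem dat_std (h32 : ¬ (n = 3 ∧ q = 2)) : Dat (PSU n F q) := by
  have : Nonempty (Fin n) := ⟨⟨0, by omega⟩⟩
  obtain ⟨χ, h1, h2⟩ := (clsU hF hn).exists_chi (thetaU_surjective hF hn h32)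
  obtain ⟨φ, -, -, k1, k2⟩ := (clsU hF hn).exists_out_hom χ (fun σ => ⟨_, h2 ⟨_, inr_mem_gamU σ⟩⟩) h1
  rw [comap_inn_diagU hF hn, index_comap_of_surjective _ (detU_surjective hF),
    IsCyclic.index_powMonoidHom_range] at k2
  have := isCyclic_ringAut (F := F)
  have key : ∀ y ∈ φ.ker, y ≠ 1 → ∀ Y : Subgroup (Out (PSU n F q)), y ∈ Y → ∀ r s : ℕ, s.Prime →
      SylCyc (PSU n F q) s ∨ Adj (PSU n F q) r s ∨ Fix (PSU n F q) Y s := fun y hy y1 Y hY r s hs => by
    refine or_iff_not_imp_left.2 fun hc => .inr ?_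
    obtain ⟨g, rfl⟩ := k1 ▸ hy
    obtain ⟨a, ha, hx⟩ := fix_diag hF hn g hs hc
    exact ⟨a, ha ▸ hY, ha ▸ y1, hx⟩
  refine Dat.of_hom φ (fun a b => ringAut_mul_comm _ _) (dvd_card hF hn Nat.prime_two (by omega))
    (fun t ht hle => dvd_card hF hn ht (hle.trans (k2 ▸ Nat.gcd_le_right _ (by omega))))
    (fun Y hY hc s hs _ _ => ?_) fun y hy r hr _ ho s hs _ _ => ?_
  · obtain ⟨y, y1, y2, y3⟩ := exists_mem_ker Nat.prime_two φ hY hc
    exact key y y2 (fun e => by simp [e] at y3) Y y1 2 s hs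
  · exact key y hy (fun e => hr.one_lt.ne' (by rw [← ho, e, orderOf_one])) _ (mem_zpowers y) r s hs

omit hF hn in
/-- The data for the unitary groups. -/
theorem datPSU {p : ℕ} {G : Type*} [Group G] [Finite G] (h : IsPSUChar p G)
    (hc : ¬ IsCyclic (Out G)) : Dat G := by
  obtain ⟨F, _, _, -, n, q, hF, hn, h32, e⟩ := h
  exact dat_of_equiv e (fun _ => dat_std hF hn h32) hc

end Cfsg.Agent.H31.GKU
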