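import Cfsg.Agent.H97.JmDefs
import Cfsg.Agent.S5563
import Cfsg.Agent.S5564
import Cfsg.Agent.H33.J4Odd1
import Cfsg.Agent.H74.Mathieu

/-! The centraliser of an element of order three in a group of Janko-four type. -/

set_option autoImplicit false

namespace Cfsg.Agent.H97.JM

open Subgroup

universe u

theorem pX3 : X3.{u} := by
  intro G _ _ _ hG hJ a ha
  obtain ⟨z, P, h⟩ := hJ
  obtain ⟨-, -, c6, ⟨e⟩, le⟩ := S5563.result hG z P h
  have c3 : Nat.card P = 3 := h.2.2.2.2.2.1
  obtain ⟨y, hy, o3⟩ := H33.J4O.exists_ord (A := P) Nat.prime_three (by rw [c3])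
  have eP : zpowers y = P :=
    eq_of_le_of_card_ge (zpowers_le.2 hy) (by rw [Nat.card_zpowers, o3, c3])
  have eK : centralizer ({z} : Set G) ⊓ centralizer (P : Set G) = centralizer {y} := by
    rw [inf_eq_right.2 ((centralizer_le_normalizer _).trans le), ← eP, H33.J4O.cent_zpowers]
  rw [H33.J4O.isConj_cent (S5564.result hG ⟨z, P, h⟩ a y ha o3), ← eK,
    card_eq_card_quotient_mul_card_subgroup (center _), c6, Nat.card_congr e.toEquiv,
    H74.card_M22]

end Cfsg.Agent.H97.JM
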