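import Cfsg.Agent.H50.L81Defs

/-! An element centralizing the torus permutes the two root subgroups. -/

set_option autoImplicit false

namespace Cfsg.Agent.H31.L81Ch1

open Cfsg.Agent.H82 Cfsg.Agent.H50.L81
open scoped Matrix MatrixGroups

theorem alg {k : Type} [Field k] (h3 : (3 : k) = 0) {a b c d l m ε δ : k} (lm : l * m = 1)
    (l4 : l ^ 4 ≠ 1) (det : a * d - b * c = 1) (hε : ε = 1 ∨ ε = -1) (hδ : δ = 1 ∨ δ = -1)
    (c0 : (a * a + b * c) * a + (a * b + b * d) * c = ε)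
    (c1 : (a * a + b * c) * b + (a * b + b * d) * d = 0)
    (k0 : a * (l * a * m) + b * (m * c * m) = δ * (l * a * m * a + l * b * l * c))
    (k1 : a * (l * b * l) + b * (m * d * l) = δ * (l * a * m * b + l * b * l * d)) :
    (b = 0 ∨ c = 0) ∧ a = ε ∧ d = ε := by
  have l0 : l ≠ 0 := left_ne_zero_of_mul_eq_one lm
  have bc : b * c = 0 := by
    rcases hδ with rfl | rfl
    · have : b * c * (l ^ 4 - 1) = 0 := by
        linear_combination (-l ^ 2) * k0 + (b * c * (l * m + 1)) * lm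
      exact (mul_eq_zero.1 this).resolve_right (sub_ne_zero.2 l4)
    · have n : l ^ 2 + 1 ≠ 0 := fun h => l4 (by linear_combination (l ^ 2 - 1) * h)
      have : b * (a + d) * (l ^ 2 + 1) = 0 := by
        linear_combination k1 - (b * (a + d)) * lm
      have e := (mul_eq_zero.1 this).resolve_right n
      have : b = 0 := by linear_combination (a + d) * e - c1 - b * det
      rw [this, zero_mul]
  have e2 : ε * ε = 1 := by rcases hε with rfl | rfl <;> ring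
  have ha : a = ε := by
    have : (a - ε) ^ 3 = 0 := by
      linear_combination c0 - (2 * a + d) * bc - ε * e2 + (-a ^ 2 * ε + a * ε ^ 2) * h3
    exact sub_eq_zero.1 (pow_eq_zero_iff (by decide) |>.1 this)
  refine ⟨mul_eq_zero.1 bc, ha, ?_⟩
  subst ha
  linear_combination a * det + a * bc - d * e2

theorem key {G : Type} [Group G] (ψ : SL →* G) (hk : ∀ s, ψ s = 1 ↔ s = 1 ∨ s = -1) (p : Par)
    (s : SL) (h1 : ψ s * ψ s * ψ s = 1) (h2 : Commute (ψ s) (ψ (t0 p) * ψ s * (ψ (t0 p))⁻¹)) :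
    ∃ t', ψ s = ψ (uu t') ∨ ψ s = ψ (ll t') := by
  have h3 : (3 : F) = 0 := CharP.cast_eq_zero F 3
  have l4 : (p.l : F) ^ 4 ≠ 1 := fun h =>
    p.hl.pow_ne_one_of_pos_of_lt (l := 4) (by decide) (by decide) (Units.ext h)
  have eq : ∀ a b : SL, ψ a = ψ b → ∃ ε : F, (ε = 1 ∨ ε = -1) ∧ ∀ i j, a i j = ε * b i j := by
    intro a b h
    rcases (hk (a * b⁻¹)).1 (by rw [map_mul, map_inv, h, mul_inv_cancel]) with k | k
    · exact ⟨1, .inl rfl, fun i j => by rw [mul_inv_eq_one.1 k, one_mul]⟩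
    · refine ⟨-1, .inr rfl, fun i j => ?_⟩
      rw [mul_inv_eq_iff_eq_mul.1 k, neg_one_mul, neg_one_mul, SL2_neg_apply]
  have ng : ∀ a : SL, ψ (-a) = ψ a := fun a => by
    rw [← neg_one_mul, map_mul, (hk _).2 (.inr rfl), one_mul]
  obtain ⟨ε, hε, e1⟩ := eq (s * s * s) 1 (by rw [map_mul, map_mul, h1, map_one])
  obtain ⟨δ, hδ, e2⟩ := eq (s * (t0 p * s * (t0 p)⁻¹)) (t0 p * s * (t0 p)⁻¹ * s)
    (by simpa only [map_mul, map_inv] using h2.eq)
  have c0 := e1 0 0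
  have c1 := e1 0 1
  have k0 := e2 0 0
  have k1 := e2 0 1
  simp only [t0, ent] at c0 c1 k0 k1
  obtain ⟨bc, ha, hd⟩ := alg h3 (mul_inv_cancel₀ p.l.ne_zero) l4 (SL2_det s) hε hδ c0 c1 k0 k1
  rcases hε with rfl | rfl <;> rcases bc with h | h
  · exact ⟨s 1 0, .inr (congrArg ψ (SL2_ext ha h rfl hd))⟩
  · exact ⟨s 0 1, .inl (congrArg ψ (SL2_ext ha rfl h hd))⟩
  · refine ⟨-s 1 0, .inr ((congrArg ψ (SL2_ext ?_ ?_ ?_ ?_)).trans (ng _))⟩ <;>
      simp only [ent, ha, h, hd]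
  · refine ⟨-s 0 1, .inl ((congrArg ψ (SL2_ext ?_ ?_ ?_ ?_)).trans (ng _))⟩ <;>
      simp only [ent, ha, h, hd]

theorem cj {G : Type} [Group G] {g t : G} (hc : Commute g t) (x : G) :
    t * (g * x * g⁻¹) * t⁻¹ = g * (t * x * t⁻¹) * g⁻¹ := by
  rw [← mul_assoc, ← mul_assoc, ← hc.eq, mul_assoc _ g⁻¹, hc.inv_inv.eq]
  simp only [mul_assoc]

theorem main {G : Type} [Group G] (ψ : SL →* G) (hk : ∀ s, ψ s = 1 ↔ s = 1 ∨ s = -1) (p : Par)
    {g : G} (hc : Commute g (ψ (t0 p))) (u s : SL) (hs : g * ψ u * g⁻¹ = ψ s)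
    (u3 : u * u * u = 1) (uc : Commute u (t0 p * u * (t0 p)⁻¹)) :
    ∃ t', g * ψ u * g⁻¹ = ψ (uu t') ∨ g * ψ u * g⁻¹ = ψ (ll t') := by
  rw [hs]
  refine key ψ hk p s ?_ ?_
  · rw [← hs, conj_mul, conj_mul, ← map_mul, ← map_mul, u3, map_one, mul_one, mul_inv_cancel]
  · rw [← hs, cj hc, ← map_inv, ← map_mul, ← map_mul]
    exact (uc.map ψ).map (MulAut.conj g)

theorem ch1 : Ch1Stmt := by
  intro H ψ E p g hg hc
  have h3 : (3 : F) = 0 := CharP.cast_eq_zero F 3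
  refine ⟨fun t => main ψ E.1 p hc _ _ (E.2.2.1 g hg _).choose_spec ?_ ?_,
    fun t => main ψ E.1 p hc _ _ (E.2.2.1 g hg _).choose_spec ?_ ?_⟩
  · apply SL2_ext <;> simp only [ent]
    linear_combination t * h3
  · apply SL2_ext <;> simp only [t0, ent] <;> field_simp
    ring
  · apply SL2_ext <;> simp only [ent]
    linear_combination t * h3
  · apply SL2_ext <;> simp only [t0, ent] <;> field_simp
    ring

end Cfsg.Agent.H31.L81Ch1
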