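import Cfsg.Agent.H79.R3Defs

/-!
# A flag-transitive group of the plane with a transvection contains all transvections
-/

set_option autoImplicit false

namespace Cfsg.Agent.H31.R3W1b

open Module Cfsg.Agent.H79.R3
open scoped Pointwise

universe u

theorem arith {p n q t c : ℕ} (hp : p.Prime) (hq : q = p ^ (n + 1)) (h2 : 2 ≤ t) (ht : t ∣ q)
    (hc : c ∣ q ^ 2) (e : c + q = (q + 1) * t) : t = q := by
  obtain ⟨s, hs⟩ := ht
  have d : t ∣ c := by
    refine (Nat.dvd_add_left (⟨s, hs⟩ : t ∣ q)).1 ?_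
    rw [e]
    exact dvd_mul_left _ _
  obtain ⟨m, hm⟩ := d
  have e1 : m + s = q + 1 := by
    refine Nat.eq_of_mul_eq_mul_left (by omega : 0 < t) ?_
    rw [mul_add, ← hm, ← hs, e, mul_comm]
  have d1 : s ∣ p ^ (n + 1) := by
    rw [← hq]
    exact Dvd.intro_left _ hs.symm
  have d2 : m ∣ p ^ ((n + 1) * 2) := by
    rw [pow_mul, ← hq]
    exact (Dvd.intro_left _ hm.symm).trans hc
  obtain ⟨l, -, rfl⟩ := (Nat.dvd_prime_pow hp).1 d1
  obtain ⟨i, -, rfl⟩ := (Nat.dvd_prime_pow hp).1 d2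
  have q0 : 0 < q := hq ▸ pow_pos hp.pos _
  rcases l with _ | l
  · rw [hs, pow_zero, mul_one]
  · exfalso
    rcases i with _ | i
    · have e2 : p ^ (l + 1) = q := by
        rw [pow_zero] at e1
        omega
      rw [e2] at hs
      have := Nat.mul_le_mul_right q h2
      omega
    · have a1 : p ∣ q + 1 := e1 ▸ dvd_add (dvd_pow_self p i.succ_ne_zero)
        (dvd_pow_self p l.succ_ne_zero)
      have a2 : p ∣ q := hq ▸ dvd_pow_self p n.succ_ne_zero
      exact hp.one_lt.ne' (Nat.dvd_one.1 ((Nat.dvd_add_right a2).1 a1))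

/-- an additive subgroup of a plane meeting all lines in `t ≥ 2` points is the plane -/
theorem key {F W : Type u} [Field F] [Finite F] [AddCommGroup W] [Module F W] [Finite W]
    (hW : Nat.card W = Nat.card F ^ 2) (T : AddSubgroup W) {t : ℕ}
    (ht : ∀ φ : W, φ ≠ 0 → Nat.card {a : F // a • φ ∈ T} = t) (h2 : 2 ≤ t) (φ : W) : φ ∈ T := by
  classical
  have := Fintype.ofFinite F
  have := Fintype.ofFinite W
  by_cases h0 : φ = 0
  · rw [h0]; exact T.zero_mem
  obtain ⟨p, _, n, hp, hn⟩ := FiniteField.card' F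
  set q := Nat.card F with hq
  have q2 : 2 ≤ q := Finite.one_lt_card
  have s1 : ∑ ψ : W, (Finset.univ.filter fun a : F => a • ψ ∈ T).card = q + (q ^ 2 - 1) * t := by
    rw [← Finset.add_sum_erase _ _ (Finset.mem_univ (0 : W))]
    congr 1
    · simp [hq]
    · rw [Finset.sum_const_nat (m := t), Finset.card_erase_of_mem (Finset.mem_univ _),
        Finset.card_univ, ← Nat.card_eq_fintype_card, hW]
      intro ψ hψ
      rw [← ht ψ (Finset.mem_erase.1 hψ).1, Nat.card_eq_fintype_card, Fintype.card_subtype]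
  have s2 : ∑ a : F, (Finset.univ.filter fun ψ : W => a • ψ ∈ T).card =
      q ^ 2 + (q - 1) * Nat.card T := by
    rw [← Finset.add_sum_erase _ _ (Finset.mem_univ (0 : F))]
    congr 1
    · simp [← hW]
    · rw [Finset.sum_const_nat (m := Nat.card T), Finset.card_erase_of_mem (Finset.mem_univ _),
        Finset.card_univ, ← Nat.card_eq_fintype_card]
      intro a ha
      have a0 := (Finset.mem_erase.1 ha).1
      rw [← Fintype.card_subtype, ← Nat.card_eq_fintype_card]
      exact Nat.card_congr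
        { toFun := fun x => ⟨a • x.1, x.2⟩
          invFun := fun x => ⟨a⁻¹ • x.1, by rw [smul_inv_smul₀ a0]; exact x.2⟩
          left_inv := fun x => Subtype.ext (inv_smul_smul₀ a0 _)
          right_inv := fun x => Subtype.ext (smul_inv_smul₀ a0 _) }
  have s3 : q + (q ^ 2 - 1) * t = q ^ 2 + (q - 1) * Nat.card T := by
    rw [← s1, ← s2]
    simp only [Finset.card_filter]
    exact Finset.sum_comm
  have e : Nat.card T + q = (q + 1) * t := by
    obtain ⟨r, hr⟩ : ∃ r, q = r + 1 := ⟨q - 1, by omega⟩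
    have e1 : q ^ 2 - 1 = r * (q + 1) := by
      rw [hr]
      exact Nat.sub_eq_of_eq_add (by ring)
    rw [e1, show q - 1 = r by omega] at s3
    refine Nat.eq_of_mul_eq_mul_left (by omega : 0 < r) ?_
    have e2 : q ^ 2 = q + r * q := by rw [hr]; ring
    rw [e2] at s3
    rw [mul_add, ← mul_assoc]
    omega
  let A : AddSubgroup F := T.comap (LinearMap.toSpanSingleton F W φ).toAddMonoidHom
  have cA : Nat.card A = t := ht φ h0
  have tq : t = q := arith hp (n := n - 1) (by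
      rw [hq, Nat.card_eq_fintype_card, hn]
      congr 1
      have := n.pos
      omega) h2 (cA ▸ A.card_addSubgroup_dvd_card) (hW ▸ T.card_addSubgroup_dvd_card) e
  have : A = ⊤ := AddSubgroup.eq_top_of_card_eq _ (by rw [cA, tq])
  have m : (1 : F) ∈ A := this ▸ AddSubgroup.mem_top _
  simpa [A] using m

variable {F V : Type u} [Field F] [AddCommGroup V] [Module F V]

theorem pt [FiniteDimensional F V] {A : Submodule F V} (h : dm A = 1) :
    ∃ w, w ≠ 0 ∧ A = F ∙ w := by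
  obtain ⟨w, hw, w0⟩ := Submodule.exists_mem_ne_zero_of_ne_bot (p := A) (by
    rintro rfl
    simp [dm] at h)
  exact ⟨w, w0, (Submodule.eq_of_le_of_finrank_eq ((Submodule.span_singleton_le_iff_mem _ _).2 hw)
    (by rw [finrank_span_singleton w0]; exact h.symm)).symm⟩

theorem dm_ker [FiniteDimensional F V] (h3 : finrank F V = 3) {φ : V →ₗ[F] F} (h : φ ≠ 0) :
    dm (LinearMap.ker φ) = 2 := by
  have := Module.Dual.finrank_ker_add_one_of_ne_zero h
  change finrank F _ = 2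
  omega

theorem prop {φ ψ : V →ₗ[F] F} (h : φ ≠ 0) (k : ∀ v, φ v = 0 → ψ v = 0) :
    ∃ d : F, ∀ v, ψ v = d * φ v := by
  obtain ⟨u, hu⟩ : ∃ u, φ u ≠ 0 := by
    by_contra hn
    push Not at hn
    exact h (LinearMap.ext hn)
  refine ⟨ψ u / φ u, fun v => ?_⟩
  have := k (v - (φ v / φ u) • u) (by
    rw [map_sub, map_smul, smul_eq_mul, div_mul_cancel₀ _ hu, sub_self])
  rw [map_sub, map_smul, smul_eq_mul, sub_eq_zero] at this
  rw [this]
  field_simp

/-- transport of transvections along a flag -/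
theorem move [FiniteDimensional F V] {Γ : Subgroup (V ≃ₗ[F] V)} (h3 : finrank F V = 3)
    (tr : Tr2 Γ 1 2) {w w' : V} {φ φ' : V →ₗ[F] F} (w0 : w ≠ 0) (w0' : w' ≠ 0) (f0 : φ ≠ 0)
    (f0' : φ' ≠ 0) (e : φ w = 0) (e' : φ' w' = 0) :
    ∃ c : F, c ≠ 0 ∧ ∀ a : F, Tv Γ w (a • φ) → Tv Γ w' ((c * a) • φ') := by
  obtain ⟨g, hg, g1, g2⟩ := tr (F ∙ w) (LinearMap.ker φ) (F ∙ w') (LinearMap.ker φ')
    ((Submodule.span_singleton_le_iff_mem _ _).2 e) (finrank_span_singleton w0) (dm_ker h3 f0)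
    ((Submodule.span_singleton_le_iff_mem _ _).2 e') (finrank_span_singleton w0') (dm_ker h3 f0')
  obtain ⟨c, hc⟩ : ∃ c : F, c • w' = g w := Submodule.mem_span_singleton.1 (by
    rw [← g1, smul_mem_smul]
    exact Submodule.mem_span_singleton_self w)
  obtain ⟨d, hd⟩ := prop (ψ := φ ∘ₗ (g.symm : V →ₗ[F] V)) f0' fun v hv => by
    have : v ∈ g • LinearMap.ker φ := g2 ▸ hv
    exact mem_smul.1 this
  have hd' : ∀ v, φ (g.symm v) = d * φ' v := hd
  have c0 : c ≠ 0 := by
    rintro rfl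
    rw [zero_smul, eq_comm, g.map_eq_zero_iff] at hc
    exact w0 hc
  have d0 : d ≠ 0 := by
    rintro rfl
    refine f0 (LinearMap.ext fun v => ?_)
    simpa using hd' (g v)
  refine ⟨c * d, mul_ne_zero c0 d0, ?_⟩
  rintro a ⟨h, hh, k⟩
  refine ⟨g * h * g⁻¹, Γ.mul_mem (Γ.mul_mem hg hh) (Γ.inv_mem hg), fun v => ?_⟩
  change g (h (g.symm v)) = _
  rw [k, map_add, map_smul, LinearEquiv.apply_symm_apply, ← hc, smul_smul, LinearMap.smul_apply,
    LinearMap.smul_apply, hd', smul_eq_mul, smul_eq_mul]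
  congr 2
  ring

theorem all [Finite F] [Finite V] {Γ : Subgroup (V ≃ₗ[F] V)} (h3 : finrank F V = 3)
    (tr : Tr2 Γ 1 2) (tv : HasTv Γ) {w : V} (w0 : w ≠ 0) {φ : V →ₗ[F] F} (e : φ w = 0) :
    Tv Γ w φ := by
  let W : Submodule F (Dual F V) := (F ∙ w).dualAnnihilator
  have mW : ∀ ψ : W, (ψ : Dual F V) w = 0 := fun ψ =>
    (Submodule.mem_dualAnnihilator _).1 ψ.2 w (Submodule.mem_span_singleton_self w)
  have : Finite (Dual F V) := Module.finite_of_finite F
  have dW : finrank F W = 2 := by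
    have := Subspace.finrank_add_finrank_dualAnnihilator_eq (F ∙ w)
    rw [finrank_span_singleton w0, h3] at this
    change finrank F (F ∙ w).dualAnnihilator = 2
    omega
  let T : AddSubgroup W :=
    { carrier := {ψ | Tv Γ w (ψ : Dual F V)}
      zero_mem' := ⟨1, Γ.one_mem, fun v => by simp⟩
      add_mem' := by
        rintro a b ⟨g, hg, k⟩ ⟨h, hh, l⟩
        refine ⟨g * h, Γ.mul_mem hg hh, fun v => ?_⟩
        change g (h v) = _
        rw [k, l, map_add, map_smul, mW, smul_zero, add_zero, Submodule.coe_add,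
          LinearMap.add_apply, add_smul]
        abel
      neg_mem' := by
        rintro a ⟨g, hg, k⟩
        refine ⟨g⁻¹, Γ.inv_mem hg, fun v => ?_⟩
        change g.symm v = _
        rw [LinearEquiv.symm_apply_eq, k, map_add, map_smul, mW, smul_zero, add_zero,
          Submodule.coe_neg, LinearMap.neg_apply, neg_smul, neg_add_cancel_right] }
  obtain ⟨w1, φ1, a1, a2, a3, a4⟩ := tv
  have le : ∀ {x x' : V} {ψ ψ' : V →ₗ[F] F}, x ≠ 0 → x' ≠ 0 → ψ ≠ 0 → ψ' ≠ 0 → ψ x = 0 →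
      ψ' x' = 0 → Nat.card {a : F // Tv Γ x (a • ψ)} ≤ Nat.card {a : F // Tv Γ x' (a • ψ')} :=
    fun b1 b2 b3 b4 b5 b6 => by
      obtain ⟨c, c0, k⟩ := move h3 tr b1 b2 b3 b4 b5 b6
      exact Nat.card_le_card_of_injective (fun a => ⟨c * a.1, k _ a.2⟩) fun a b e =>
        Subtype.ext (mul_left_cancel₀ c0 (congrArg Subtype.val e))
  have m : φ ∈ W := (Submodule.mem_dualAnnihilator _).2 fun v hv => by
    obtain ⟨c, rfl⟩ := Submodule.mem_span_singleton.1 hv
    rw [map_smul, e, smul_zero]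
  refine key (F := F) (by rw [Module.natCard_eq_pow_finrank (K := F), dW]) T
    (t := Nat.card {a : F // Tv Γ w1 (a • φ1)}) (fun ψ h0 => ?_) ?_ ⟨φ, m⟩
  · have h1 : (ψ : Dual F V) ≠ 0 := fun k => h0 (Subtype.ext k)
    exact le_antisymm (le w0 a1 h1 a2 (mW ψ) a3) (le a1 w0 a2 h1 a3 (mW ψ))
  · have : Nontrivial {a : F // Tv Γ w1 (a • φ1)} :=
      ⟨⟨0, 1, Γ.one_mem, fun v => by simp⟩, ⟨1, by rwa [one_smul]⟩,
        fun k => zero_ne_one (congrArg Subtype.val k)⟩
    exact Finite.one_lt_card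

theorem w1b' : W1bStmt.{u} := by
  intro F V _ _ _ _ _ Γ h3 tr tv L hL y z z' hy hz hz' yL zL zL' n n'
  obtain ⟨w, w0, rfl⟩ := pt hy
  obtain ⟨v, v0, rfl⟩ := pt hz
  obtain ⟨v', v0', rfl⟩ := pt hz'
  have ne : ∀ {x : V}, x ≠ 0 → (F ∙ x) ≠ (F ∙ w) → x ∉ F ∙ w := fun x0 k m =>
    k (Submodule.eq_of_le_of_finrank_eq ((Submodule.span_singleton_le_iff_mem _ _).2 m)
      (by rw [finrank_span_singleton x0, finrank_span_singleton w0]))
  have lt : (F ∙ w) < (F ∙ w) ⊔ (F ∙ v) := left_lt_sup.2 fun k =>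
    ne v0 n (k (Submodule.mem_span_singleton_self v))
  have eL : (F ∙ w) ⊔ (F ∙ v) = L := Submodule.eq_of_le_of_finrank_le (sup_le yL zL) (by
    have := Submodule.finrank_lt_finrank_of_lt lt
    rw [finrank_span_singleton w0] at this
    change dm L ≤ _
    omega)
  obtain ⟨_, m1, _, m2, e⟩ := Submodule.mem_sup.1
    (eL.ge (zL' (Submodule.mem_span_singleton_self v')))
  obtain ⟨a, rfl⟩ := Submodule.mem_span_singleton.1 m1
  obtain ⟨b, rfl⟩ := Submodule.mem_span_singleton.1 m2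
  have b0 : b ≠ 0 := by
    rintro rfl
    rw [zero_smul, add_zero] at e
    exact ne v0' n' (e ▸ m1)
  obtain ⟨f, f0, fk⟩ := Submodule.exists_le_ker_of_notMem (ne v0 n)
  have fw : f w = 0 := fk (Submodule.mem_span_singleton_self w)
  obtain ⟨g, hg, k⟩ := all h3 tr tv w0 (φ := (a / b / f v) • f) (by
    rw [LinearMap.smul_apply, fw, smul_zero])
  refine ⟨g, hg, ?_, ?_⟩
  · rw [smul_span, k, LinearMap.smul_apply, fw, smul_zero, zero_smul, add_zero]
  · rw [smul_span, k, LinearMap.smul_apply, smul_eq_mul, div_mul_cancel₀ _ f0, ← e,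
      ← Submodule.span_singleton_smul_eq b0.isUnit, smul_add, smul_smul, mul_div_cancel₀ _ b0,
      add_comm]

theorem w1b (_ : CovStmt.{u}) : W1bStmt.{u} := w1b'

end Cfsg.Agent.H31.R3W1b
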