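import Cfsg.Agent.H79.RbDefs

/-!
# The number of bars of length divisible by `r`
-/

set_option autoImplicit false

namespace Cfsg.Agent.H31.RbWt

open Finset Cfsg.Agent.H79.RB

/-- The contribution of one pair. -/
def pg (r a y : ℕ) : ℤ :=
  (if (a : ZMod r) + y = 0 then 1 else 0) - (if (a : ZMod r) = y then 1 else 0)

theorem pg_comm (r a y : ℕ) : pg r a y = pg r y a := by
  simp only [pg, add_comm (a : ZMod r), eq_comm (a := (a : ZMod r))]

theorem bw_eq (r : ℕ) (S : Finset ℕ) : bw r S = ∑ x ∈ S, ((x / r : ℕ) : ℤ) +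
    ∑ x ∈ S, ∑ y ∈ S, if y < x then pg r x y else 0 := by
  rw [bw, card_filter, card_filter, add_sub_assoc, Nat.cast_sum, Nat.cast_sum, Nat.cast_sum,
    ← sum_sub_distrib, sum_product]
  congr 1
  refine sum_congr rfl fun x _ => sum_congr rfl fun y _ => ?_
  by_cases h : y < x
  · have e1 : r ∣ x + y ↔ (x : ZMod r) + y = 0 := by
      rw [← Nat.cast_add, ZMod.natCast_eq_zero_iff]
    have e2 : r ∣ x - y ↔ (x : ZMod r) = y := by
      rw [eq_comm, ZMod.natCast_eq_natCast_iff, Nat.modEq_iff_dvd' h.le]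
    simp only [h, true_and, e1, e2, pg, if_true, Nat.cast_ite, Nat.cast_one, Nat.cast_zero]
  · simp [h]

theorem bw_insert (r : ℕ) {a : ℕ} {S : Finset ℕ} (ha : a ∉ S) :
    bw r (insert a S) = bw r S + (a / r : ℕ) + ∑ y ∈ S, pg r a y := by
  have e : ∑ y ∈ S, pg r a y = ∑ y ∈ S, (if y < a then pg r a y else 0) +
      ∑ y ∈ S, (if a < y then pg r y a else 0) := by
    rw [← sum_add_distrib]
    refine sum_congr rfl fun y hy => ?_
    have : y ≠ a := fun h => ha (h ▸ hy)
    rcases lt_or_gt_of_ne this with h | h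
    · rw [if_pos h, if_neg h.not_gt, add_zero]
    · rw [if_neg h.not_gt, if_pos h, zero_add, pg_comm]
  rw [bw_eq, bw_eq, e, sum_insert ha, sum_insert ha, sum_insert ha, if_neg (lt_irrefl a)]
  simp only [sum_insert ha, sum_add_distrib]
  ring

theorem bw_nonneg (r : ℕ) (S : Finset ℕ) : 0 ≤ bw r S := by
  induction S using Finset.induction_on_max with
  | empty => simp [bw]
  | insert a S hS ih =>
    rw [bw_insert r fun h => lt_irrefl a (hS a h)]
    have h1 : #(S.filter fun y : ℕ => (a : ZMod r) = y) ≤ a / r := by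
      rw [← card_range (a / r)]
      refine card_le_card_of_injOn (· / r) (fun y hy => ?_) fun y hy y' hy' e => ?_
      · obtain ⟨h2, h3⟩ := mem_filter.1 hy
        have h4 : a % r = y % r := (ZMod.natCast_eq_natCast_iff _ _ _).1 h3
        have h5 := hS y h2
        have h6 := Nat.div_add_mod a r
        have h7 := Nat.div_add_mod y r
        have h8 : r * (y / r) < r * (a / r) := by omega
        exact mem_coe.2 (mem_range.2 (Nat.lt_of_mul_lt_mul_left h8))
      · have h4 : y % r = y' % r := (ZMod.natCast_eq_natCast_iff _ _ _).1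
          ((mem_filter.1 hy).2.symm.trans (mem_filter.1 hy').2)
        have e' : y / r = y' / r := e
        rw [← Nat.div_add_mod y r, ← Nat.div_add_mod y' r, h4, e']
    have h2 : -(#(S.filter fun y : ℕ => (a : ZMod r) = y) : ℤ) ≤ ∑ y ∈ S, pg r a y := by
      rw [card_filter, Nat.cast_sum, ← sum_neg_distrib]
      refine sum_le_sum fun y _ => ?_
      unfold pg
      split_ifs <;> simp
    have h3 : (#(S.filter fun y : ℕ => (a : ZMod r) = y) : ℤ) ≤ (a / r : ℕ) := by exact_mod_cast h1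
    omega

theorem wtStmt : WtStmt := by
  intro r S h0
  refine ⟨bw_nonneg r S, fun hr S' ⟨x, hx, H⟩ => ?_⟩
  have r0 : 0 < r := hr.pos
  have x0 : 0 < x := Nat.pos_of_ne_zero fun e => h0 (e ▸ hx)
  have e0 : bw r S = bw r (S.erase x) + (x / r : ℕ) + ∑ y ∈ S.erase x, pg r x y := by
    rw [← bw_insert r (notMem_erase x S), insert_erase hx]
  rcases H with ⟨h1, h2, rfl⟩ | ⟨rfl, rfl⟩ | ⟨h1, h2, rfl⟩
  · refine ⟨fun h => ?_, ?_⟩
    · rcases mem_insert.1 h with h | h
      · omega
      · exact h0 (mem_of_mem_erase h)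
    · have e1 : ((x - r : ℕ) : ZMod r) = x := by
        rw [Nat.cast_sub h1.le, ZMod.natCast_self, sub_zero]
      rw [e0, bw_insert r fun h => h2 (mem_of_mem_erase h), Nat.div_eq_sub_div r0 h1.le]
      simp only [pg, e1]
      push_cast
      ring
  · refine ⟨fun h => h0 (mem_of_mem_erase h), ?_⟩
    rw [e0, Nat.div_self r0, sum_eq_zero fun y _ => ?_]
    · simp
    · simp only [pg, ZMod.natCast_self, zero_add, eq_comm (a := (0 : ZMod x)), sub_self]
  · refine ⟨fun h => h0 (mem_of_mem_erase (mem_of_mem_erase h)), ?_⟩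
    have e1 : ((r - x : ℕ) : ZMod r) = -x := by
      rw [Nat.cast_sub h1.le, ZMod.natCast_self, zero_sub]
    have e2 : pg r x (r - x) = 1 := by
      have : ¬ ((x : ZMod r) = (r - x : ℕ)) := fun e => by
        have h4 : x % r = (r - x) % r := (ZMod.natCast_eq_natCast_iff _ _ _).1 e
        rw [Nat.mod_eq_of_lt h1, Nat.mod_eq_of_lt (by omega)] at h4
        exact (mem_erase.1 h2).1 h4.symm
      rw [pg, if_neg this, e1, add_neg_cancel, if_pos rfl, sub_zero]
    have e3 : ∀ y, pg r (r - x) y = -pg r x y := fun y => by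
      simp only [pg, e1, neg_add_eq_zero, neg_eq_iff_add_eq_zero, neg_sub]
    rw [e0]
    conv_rhs => rw [← insert_erase h2]
    rw [bw_insert r (notMem_erase _ _), sum_insert (notMem_erase _ _), e2, Nat.div_eq_of_lt h1,
      Nat.div_eq_of_lt (show r - x < r by omega)]
    simp only [e3, sum_neg_distrib]
    push_cast
    ring

theorem padicStmt : PadicStmt := by
  intro p S n g hp h0 hg
  set P := (S ×ˢ S).filter (fun e => e.2 < e.1) with hP
  have hlt : ∀ e ∈ P, e.2 < e.1 := fun e he => (mem_filter.1 he).2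
  have n1 : ∀ x ∈ S, x.factorial ≠ 0 := fun x _ => x.factorial_ne_zero
  have n2 : ∀ e ∈ P, e.1 + e.2 ≠ 0 := fun e he => by have := hlt e he; omega
  have n3 : ∀ e ∈ P, e.1 - e.2 ≠ 0 := fun e he => by have := hlt e he; omega
  have key : g * ((∏ x ∈ S, x.factorial) * ∏ e ∈ P, (e.1 + e.2)) =
      n.factorial * ∏ e ∈ P, (e.1 - e.2) := by
    have a1 : (∏ x ∈ S, (x.factorial : ℚ)) ≠ 0 :=
      prod_ne_zero_iff.2 fun x hx => Nat.cast_ne_zero.2 (n1 x hx)
    have a2 : (∏ e ∈ P, ((e.1 : ℚ) + e.2)) ≠ 0 :=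
      prod_ne_zero_iff.2 fun e he => by exact_mod_cast n2 e he
    have a3 : ((∏ e ∈ P, (e.1 - e.2) : ℕ) : ℚ) = ∏ e ∈ P, ((e.1 : ℚ) - e.2) := by
      rw [Nat.cast_prod]
      exact prod_congr rfl fun e he => Nat.cast_sub (hlt e he).le
    apply Nat.cast_injective (R := ℚ)
    rw [Nat.cast_mul, Nat.cast_mul, Nat.cast_mul, a3, hg, hS, ← hP, prod_inv_distrib,
      prod_div_distrib]
    push_cast
    field_simp
  have r0 : n.factorial * ∏ e ∈ P, (e.1 - e.2) ≠ 0 :=
    mul_ne_zero n.factorial_ne_zero (prod_ne_zero_iff.2 n3)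
  have g0 : g ≠ 0 := fun e => r0 (by rw [← key, e, zero_mul])
  obtain ⟨b, hb2, hb⟩ : ∃ b, 2 ≤ b ∧ ∀ x ∈ S, 2 * x < p ^ b := by
    refine ⟨2 * S.sup id + 2, by omega, fun x hx => ?_⟩
    have : x ≤ S.sup id := le_sup (f := id) hx
    exact lt_of_lt_of_le (by omega) (Nat.lt_pow_self hp.one_lt).le
  have hbP : ∀ e ∈ P, e.1 + e.2 < p ^ b := fun e he => by
    have h1 := hb _ (mem_product.1 (mem_filter.1 he).1).1
    have := hlt e he
    omega
  have f := congrArg (fun m => m.factorization p) key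
  simp only [Nat.factorization_mul g0 (mul_ne_zero (prod_ne_zero_iff.2 n1) (prod_ne_zero_iff.2 n2)),
    Nat.factorization_mul (prod_ne_zero_iff.2 n1) (prod_ne_zero_iff.2 n2),
    Nat.factorization_mul n.factorial_ne_zero (prod_ne_zero_iff.2 n3), Finsupp.add_apply,
    Nat.factorization_prod_apply n1, Nat.factorization_prod_apply n2,
    Nat.factorization_prod_apply n3] at f
  have s1 : ∑ x ∈ S, x.factorial.factorization p = ∑ i ∈ Ico 1 b, ∑ x ∈ S, x / p ^ i := by
    rw [sum_comm]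
    refine sum_congr rfl fun x hx => Nat.factorization_factorial hp ?_
    exact Nat.log_lt_of_lt_pow' (by omega) (by have := hb x hx; omega)
  have s2 : ∀ φ : ℕ × ℕ → ℕ, (∀ e ∈ P, φ e ≠ 0) → (∀ e ∈ P, φ e < p ^ b) →
      ∑ e ∈ P, (φ e).factorization p =
        ∑ i ∈ Ico 1 b, #((S ×ˢ S).filter fun e => e.2 < e.1 ∧ p ^ i ∣ φ e) := by
    intro φ h1 h2
    simp only [← filter_filter, ← hP, card_filter]
    rw [sum_comm]
    refine sum_congr rfl fun e he => ?_
    rw [Nat.factorization_eq_card_pow_dvd_of_lt hp (Nat.pos_of_ne_zero (h1 e he)) (h2 e he),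
      card_filter]
  rw [s1, s2 (fun e => e.1 + e.2) n2 hbP,
    s2 (fun e => e.1 - e.2) n3 fun e he => by have := hbP e he; omega] at f
  have t1 : (g.factorization p : ℤ) + ∑ i ∈ Ico 1 b, bw (p ^ i) S = n.factorial.factorization p := by
    simp only [bw, sum_sub_distrib, sum_add_distrib, ← Nat.cast_sum]
    omega
  have t2 : bw (p ^ 1) S ≤ ∑ i ∈ Ico 1 b, bw (p ^ i) S :=
    single_le_sum (f := fun i => bw (p ^ i) S) (fun i _ => bw_nonneg _ S)
      (mem_Ico.2 ⟨le_rfl, hb2⟩)
  rw [pow_one] at t2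
  omega

end Cfsg.Agent.H31.RbWt
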