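import Cfsg.Agent.H35.S4Defs

/-!
# Standard subgroups of type `Sp₄(q)`: the torus trick
-/

set_option autoImplicit false
set_option linter.unusedSectionVars false

namespace Cfsg.Agent.H31.S4B

open Cfsg Cfsg.Agent.H63 Cfsg.Agent.H63.SL Cfsg.Agent.H35.S4 Subgroup
open scoped commutatorElement

universe u v

variable {F : Type v} [Field F] [Finite F] {G : Type u} [Group G] [Finite G] {L : Subgroup G}
  {x : ZMod 8 → F → G} {t : G}

theorem wt1 (α β : Fˣ) : wt α β 1 = α := rfl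
theorem wt2 (α β : Fˣ) : wt α β 2 = α ^ 2 * β := rfl
theorem wt3 (α β : Fˣ) : wt α β 3 = α * β := rfl
theorem wt4 (α β : Fˣ) : wt α β 4 = β := rfl

section Pin

variable (p : Pin2 x)
include p

theorem x0 (i : ZMod 8) : x i 0 = 1 := by
  have := p.add i 0 0
  rwa [add_zero, left_eq_mul] at this

theorem xsq (i : ZMod 8) (a : F) : x i a * x i a = 1 := by
  rw [← p.add, ← two_mul, p.two, zero_mul, x0 p]

theorem xinv (i : ZMod 8) (a : F) : (x i a)⁻¹ = x i a := inv_eq_of_mul_eq_one_right (xsq p i a)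

theorem c0 (i : ZMod 8) (a b : F) : Commute (x i a) (x i b) := by
  rw [Commute, SemiconjBy, ← p.add, ← p.add, add_comm]

end Pin

section Ctx

variable (c : Ctx L x t)
include c

theorem z2 (a : F) : x 2 a ∈ Zp x := (c.kp.memZ _).2 ⟨a, 0, by rw [x0 c.mod.pin, mul_one]⟩

theorem z3 (a : F) : x 3 a ∈ Zp x := (c.kp.memZ _).2 ⟨0, a, by rw [x0 c.mod.pin, one_mul]⟩

theorem u1 (a : F) : x 1 a ∈ Up x :=
  (c.kp.memU _).2 ⟨a, 0, 0, 0, by simp only [x0 c.mod.pin, mul_one]⟩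

theorem u4 (a : F) : x 4 a ∈ Up x :=
  (c.kp.memU _).2 ⟨0, 0, 0, a, by simp only [x0 c.mod.pin, one_mul]⟩

theorem UL {u : G} (hu : u ∈ Up x) : u ∈ L := by
  obtain ⟨a, b, d, e, rfl⟩ := (c.kp.memU _).1 hu
  exact mul_mem (mul_mem (mul_mem (c.kb.xL _ _) (c.kb.xL _ _)) (c.kb.xL _ _)) (c.kb.xL _ _)

theorem ZL {z : G} (hz : z ∈ Zp x) : z ∈ L := by
  obtain ⟨a, b, rfl⟩ := (c.kp.memZ _).1 hz
  exact mul_mem (c.kb.xL _ _) (c.kb.xL _ _)

theorem ZcU {z u : G} (hz : z ∈ Zp x) (hu : u ∈ Up x) : Commute z u := by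
  have p := c.mod.pin
  obtain ⟨a, b, rfl⟩ := (c.kp.memZ _).1 hz
  obtain ⟨d, e, f, g, rfl⟩ := (c.kp.memU _).1 hu
  exact ((((p.c1 1 d a).symm.mul_right (c0 p 2 a e)).mul_right (p.c1 2 a f)).mul_right
    (p.c2 2 a g)).mul_left
    ((((p.c2 1 d b).symm.mul_right (p.c1 2 e b).symm).mul_right (c0 p 3 b f)).mul_right
      (p.c1 3 b g))

theorem tt : t * t = 1 := by rw [← pow_two, ← c.tc.t2, pow_orderOf_eq_one]

theorem memT {y : G} (hy : y ∈ zpowers t ⊔ Zp x) : ∃ z ∈ Zp x, y = z ∨ y = t * z := by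
  rw [zpowers_eq_closure, ← closure_eq (Zp x), ← Subgroup.closure_union] at hy
  induction hy using closure_induction with
  | mem y hy =>
    rcases hy with rfl | hy
    · exact ⟨1, one_mem _, Or.inr (mul_one _).symm⟩
    · exact ⟨y, hy, Or.inl rfl⟩
  | one => exact ⟨1, one_mem _, Or.inl rfl⟩
  | mul a b _ _ ha hb =>
    obtain ⟨z, hz, ha⟩ := ha
    obtain ⟨z', hz', hb⟩ := hb
    have e := (c.kb.tL z (ZL c hz)).eq
    refine ⟨z * z', mul_mem hz hz', ?_⟩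
    rcases ha with rfl | rfl <;> rcases hb with rfl | rfl
    · exact Or.inl rfl
    · exact Or.inr (by rw [← mul_assoc, ← e, mul_assoc])
    · exact Or.inr (mul_assoc _ _ _)
    · exact Or.inl (by rw [e, mul_assoc, ← mul_assoc t, tt c, one_mul])
  | inv a _ ha =>
    obtain ⟨z, hz, ha⟩ := ha
    refine ⟨z⁻¹, inv_mem hz, ?_⟩
    rcases ha with rfl | rfl
    · exact Or.inl rfl
    · exact Or.inr (by
        rw [mul_inv_rev, inv_eq_of_mul_eq_one_right (tt c),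
          (c.kb.tL _ (inv_mem (ZL c hz))).eq])

theorem TL {y : G} (hy : y ∈ zpowers t ⊔ Zp x) (hl : y ∈ L) : y ∈ Zp x := by
  obtain ⟨z, hz, rfl | rfl⟩ := memT c hy
  · exact hz
  · exact absurd ((mul_mem_cancel_right (ZL c hz)).1 hl) (c.noL t ⟨1, by group⟩)

theorem TcU {y u : G} (hy : y ∈ zpowers t ⊔ Zp x) (hu : u ∈ Up x) : Commute y u := by
  obtain ⟨z, hz, rfl | rfl⟩ := memT c hy
  · exact ZcU c hz hu
  · exact (c.kb.tL u (UL c hu)).mul_left (ZcU c hz hu)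

theorem hZ {h : G} {α β : Fˣ} (hh : Tor x h α β) {z : G} (hz : z ∈ Zp x) : h * z * h⁻¹ ∈ Zp x := by
  obtain ⟨a, b, rfl⟩ := (c.kp.memZ _).1 hz
  rw [← conj_mul, hh, hh]
  exact mul_mem (z2 c _) (z3 c _)

theorem hU {h : G} {α β : Fˣ} (hh : Tor x h α β) {u : G} (hu : u ∈ Up x) : h * u * h⁻¹ ∈ Up x := by
  obtain ⟨a, b, d, e, rfl⟩ := (c.kp.memU _).1 hu
  rw [← conj_mul, ← conj_mul, ← conj_mul, hh, hh, hh, hh]
  exact (c.kp.memU _).2 ⟨_, _, _, _, rfl⟩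

end Ctx

variable (x t) in
/-- The stabilizer of the chain, up to `t`. -/
structure N1 (n : G) : Prop where
  cz : n ∈ C[Zp x]
  cu : ∀ u ∈ Up x, ⁅n, u⁆ ∈ zpowers t ⊔ Zp x
  mv : ∃ z ∈ Zp x, n * t * n⁻¹ = t * z

theorem N1.conjT {n : G} (hn : N1 x t n) (c : Ctx L x t) {y : G} (hy : y ∈ zpowers t ⊔ Zp x) :
    n * y * n⁻¹ ∈ zpowers t ⊔ Zp x ∧ n⁻¹ * y * n ∈ zpowers t ⊔ Zp x := by
  obtain ⟨w, hw, e⟩ := hn.mv
  have a1 : ∀ z ∈ Zp x, n * z * n⁻¹ = z := fun z hz => by rw [← hn.cz z hz, mul_inv_cancel_right]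
  have a2 : ∀ z ∈ Zp x, n⁻¹ * z * n = z := fun z hz => by
    rw [mul_assoc, hn.cz z hz, inv_mul_cancel_left]
  have a3 : n⁻¹ * t * n = t * w⁻¹ := by
    rw [eq_mul_inv_iff_mul_eq, ← a2 w hw]
    calc _ = n⁻¹ * (t * w) * n := by group
      _ = t := by rw [← e]; group
  have ht : t ∈ zpowers t ⊔ Zp x := mem_sup_left (mem_zpowers t)
  obtain ⟨z, hz, rfl | rfl⟩ := memT c hy
  · rw [a1 _ hz, a2 _ hz]; exact ⟨hy, hy⟩
  · constructor
    · rw [← conj_mul, e, a1 _ hz]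
      exact mul_mem (mul_mem ht (mem_sup_right hw)) (mem_sup_right hz)
    · have : n⁻¹ * (t * z) * n = n⁻¹ * t * n * (n⁻¹ * z * n) := by group
      rw [this, a3, a2 _ hz]
      exact mul_mem (mul_mem ht (mem_sup_right (inv_mem hw))) (mem_sup_right hz)

theorem N1.mul {n m : G} (hn : N1 x t n) (hm : N1 x t m) (c : Ctx L x t) {z w : G} (hz : z ∈ Zp x)
    (hw : w ∈ Zp x) (e : n * t * n⁻¹ = t * z) (e' : m * t * m⁻¹ = t * w) :
    N1 x t (n * m) ∧ n * m * t * (n * m)⁻¹ = t * (z * w) := by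
  have a : n * m * t * (n * m)⁻¹ = t * (z * w) := by
    calc _ = n * (m * t * m⁻¹) * n⁻¹ := by group
      _ = n * t * n⁻¹ * (n * w * n⁻¹) := by rw [e']; group
      _ = _ := by rw [e, ← hn.cz w hw, mul_inv_cancel_right, mul_assoc]
  refine ⟨⟨mul_mem hn.cz hm.cz, fun u hu => ?_, _, mul_mem hz hw, a⟩, a⟩
  have : ⁅n * m, u⁆ = n * ⁅m, u⁆ * n⁻¹ * ⁅n, u⁆ := by simp only [commutatorElement_def]; group
  rw [this]
  exact mul_mem (hn.conjT c (hm.cu u hu)).1 (hn.cu u hu)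

/-- Removing `t`. -/
theorem kill (c : Ctx L x t) {n h : G} (hn : N1 x t n) (hL : h ∈ L) {α β : Fˣ}
    (hh : Tor x h α β) (ha : α ≠ 1) (hb : β ≠ 1) (hf : Commute h (n * t * n⁻¹)) :
    ∀ u ∈ Up x, ⁅n, u⁆ ∈ Zp x := by
  have p := c.mod.pin
  have ht : Commute t h := c.kb.tL h hL
  have hT : ∀ y ∈ zpowers t ⊔ Zp x, h * y * h⁻¹ * y⁻¹ ∈ Zp x := fun y hy => by
    obtain ⟨z, hz, rfl | rfl⟩ := memT c hy
    · exact mul_mem (hZ c hh hz) (inv_mem hz)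
    · have a := mul_mem (hZ c hh hz) (inv_mem hz)
      have : h * (t * z) * h⁻¹ * (t * z)⁻¹ = t * (h * z * h⁻¹ * z⁻¹) * t⁻¹ := by
        rw [← mul_assoc h, ← ht.eq]; group
      rw [this, (c.kb.tL _ (ZL c a)).eq, mul_inv_cancel_right]
      exact a
  have mt : Commute (n⁻¹ * (h * n * h⁻¹)) t := by
    calc n⁻¹ * (h * n * h⁻¹) * t = n⁻¹ * (h * (n * t * n⁻¹)) * n * h⁻¹ := by
          rw [mul_assoc _ _ t, mul_assoc _ h⁻¹, ← ht.inv_right.eq]; group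
      _ = _ := by rw [hf.eq]; group
  have mN := c.tc.cN (mem_centralizer_singleton_iff.2 mt)
  have key : ∀ u ∈ Up x, ⁅n, h * u * h⁻¹ * u⁻¹⁆ ∈ Zp x := fun u hu => by
    have hv := hU c hh hu
    have t1 := hn.cu u hu
    have t2 := hn.cu _ hv
    have t3 := hT _ t1
    set v := h * u * h⁻¹ with hv'
    set m := n⁻¹ * (h * n * h⁻¹) with hm
    have e1 : ⁅m, v⁆ = n⁻¹ * (h * ⁅n, u⁆ * h⁻¹ * ⁅n, u⁆⁻¹ * (⁅n, u⁆ * ⁅n, v⁆⁻¹)) * n := by
      simp only [hm, hv', commutatorElement_def]; group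
    have e2 : ⁅m, v⁆ ∈ Zp x := by
      refine TL c ?_ (mul_mem ((mem_normalizer_iff.1 mN v).1 (UL c hv)) (inv_mem (UL c hv)))
      rw [e1]
      exact (hn.conjT c (mul_mem (mem_sup_right t3) (mul_mem t1 (inv_mem t2)))).2
    have e3 : n * ⁅m, v⁆ * n⁻¹ = ⁅m, v⁆ := by rw [← hn.cz _ e2, mul_inv_cancel_right]
    have e4 : ⁅n, u⁆ * ⁅n, v⁆⁻¹ = (h * ⁅n, u⁆ * h⁻¹ * ⁅n, u⁆⁻¹)⁻¹ * ⁅m, v⁆ := by
      rw [← e3, e1]; group
    have e5 : ⁅n, v * u⁻¹⁆ = (⁅n, u⁆ * ⁅n, v⁆⁻¹)⁻¹ := by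
      have := (TcU c (inv_mem t1) (mul_mem hv (inv_mem hu))).eq
      calc ⁅n, v * u⁻¹⁆ = ⁅n, v⁆ * (v * u⁻¹ * ⁅n, u⁆⁻¹) * (v * u⁻¹)⁻¹ := by
            simp only [commutatorElement_def]; group
        _ = _ := by rw [← this]; group
    rw [e5, e4]
    exact inv_mem (mul_mem (inv_mem t3) e2)
  have one : ∀ (i : ZMod 8) (γ : Fˣ), γ ≠ 1 → wt α β i = γ → (∀ a, x i a ∈ Up x) →
      ∀ a, ⁅n, x i a⁆ ∈ Zp x := fun i γ h1 h2 h3 a => by
    have h4 : (γ : F) + 1 ≠ 0 := fun e => h1 (Units.ext (by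
      rw [Units.val_one]; linear_combination e - p.two))
    have := key _ (h3 (a / (γ + 1)))
    rwa [hh, h2, xinv p, ← p.add, ← add_one_mul, mul_div_cancel₀ _ h4] at this
  have mul : ∀ u ∈ Up x, ∀ u', ⁅n, u⁆ ∈ Zp x → ⁅n, u'⁆ ∈ Zp x → ⁅n, u * u'⁆ ∈ Zp x := by
    intro u hu u' a b
    have : ⁅n, u * u'⁆ = ⁅n, u⁆ * (u * ⁅n, u'⁆ * u⁻¹) := by
      simp only [commutatorElement_def]; group
    rw [this, ← (ZcU c b hu).eq, mul_inv_cancel_right]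
    exact mul_mem a b
  have zz : ∀ z ∈ Zp x, ⁅n, z⁆ ∈ Zp x := fun z hz => by
    rw [commutatorElement_eq_one_iff_mul_comm.2 (hn.cz z hz).symm]; exact one_mem _
  intro u hu
  obtain ⟨a, b, d, e, rfl⟩ := (c.kp.memU _).1 hu
  refine mul _ ((c.kp.memU _).2 ⟨a, b, d, 0, by rw [x0 p, mul_one]⟩) _
    (mul _ ((c.kp.memU _).2 ⟨a, b, 0, 0, by rw [x0 p, x0 p, mul_one, mul_one]⟩) _
      (mul _ (u1 c a) _ (one 1 α ha rfl (u1 c) a) (zz _ (z2 c b))) (zz _ (z3 c d)))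
    (one 4 β hb rfl (u4 c) e)

/-- The commutator of the fusing element with the torus. -/
theorem step (c : Ctx L x t) (hS : SemiL L x t) {z : G} (hz : z ∈ Zp x) (hd : t * z ∈ Dt t)
    (α β : Fˣ) : ∃ h n, Tor x h α β ∧ N1 x t n ∧ n * t * n⁻¹ = t * (z * (h * z * h⁻¹)⁻¹) := by
  obtain ⟨g, hg, e⟩ := c.nw z hz hd
  obtain ⟨h', hh', hT⟩ := c.kp.tor α β
  obtain ⟨h, hh, a1, a2⟩ := hS g hg h' hh'
  have b1 : Commute t h := c.kb.tL h hh.1
  have b2 : Commute t h' := c.kb.tL h' hh'.1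
  set n := g * h * g⁻¹ * h'⁻¹ with hn
  have b3 : n * h' * (t * z) * (n * h')⁻¹ = t * z := by
    rw [← e, hn]
    calc _ = g * (h * t * h⁻¹) * g⁻¹ := by group
      _ = _ := by rw [← b1.eq, mul_inv_cancel_right]
  have b4 : n * t * n⁻¹ = t * (z * (h' * z * h'⁻¹)⁻¹) := by
    rw [← mul_assoc, eq_mul_inv_iff_mul_eq, ← b3]
    calc n * t * n⁻¹ * (h' * z * h'⁻¹) = n * t * n⁻¹ * (n * (h' * z * h'⁻¹) * n⁻¹) := by
          rw [← a1 _ (hZ c hT hz), mul_inv_cancel_right]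
      _ = n * (t * h') * z * (n * h')⁻¹ := by group
      _ = _ := by rw [b2.eq]; group
  exact ⟨h', n, hT, ⟨a1, a2, _, mul_mem hz (inv_mem (hZ c hT hz)), b4⟩, b4⟩

theorem fin (c : Ctx L x t) (i : ZMod 8) (hi : ∀ a, x i a ∈ Zp x) {b : F} (hb : b ≠ 0)
    (H : ∀ γ : Fˣ, ∃ n, N1 x t n ∧ n * t * n⁻¹ = t * x i ((1 + γ) * b)) {α β : Fˣ} (ha : α ≠ 1)
    (hβ : β ≠ 1) (hw : wt α β i = 1) (a : F) : Mv x t (x i a) := by
  have p := c.mod.pin
  have h1 : ∀ a, a ≠ b → ∃ n, N1 x t n ∧ n * t * n⁻¹ = t * x i a := fun a ha => by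
    have h0 : a / b + 1 ≠ 0 := fun e => ha (by
      rw [← div_eq_one_iff_eq hb]; linear_combination e - p.two)
    obtain ⟨n, hn, e⟩ := H (Units.mk0 _ h0)
    refine ⟨n, hn, ?_⟩
    rw [e, Units.val_mk0]
    congr 2
    field_simp
    linear_combination b * p.two
  have h2 : ∃ n, N1 x t n ∧ n * t * n⁻¹ = t * x i a := by
    by_cases e : a = b
    · subst e
      obtain ⟨n, hn, e⟩ := h1 (α * a) fun e => ha (Units.ext ((mul_eq_right₀ hb).1 e))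
      obtain ⟨m, hm, e'⟩ := h1 ((α + 1) * a) fun e =>
        α.ne_zero (add_eq_right.1 ((mul_eq_right₀ hb).1 e))
      obtain ⟨k1, k2⟩ := hn.mul hm c (hi _) (hi _) e e'
      refine ⟨_, k1, ?_⟩
      rw [k2, ← p.add]
      congr 2
      linear_combination α * a * p.two
    · exact h1 a e
  obtain ⟨n, hn, e⟩ := h2
  obtain ⟨h, hh, hT⟩ := c.kp.tor α β
  refine ⟨n, hn.cz, kill c hn hh.1 hT ha hβ ?_, e⟩
  rw [e]
  refine (c.kb.tL h hh.1).symm.mul_right ?_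
  have := hT i a
  rw [hw, Units.val_one, one_mul] at this
  exact mul_inv_eq_iff_eq_mul.1 this

/-- **STB2** -/
theorem stb2 : StB2Stmt.{u, v} := by
  intro F _ _ G _ _ L x t c hS b d hd
  have p := c.mod.pin
  have hz := mul_mem (z2 c b) (z3 c d)
  obtain ⟨γ, g1, g2⟩ := c.kb.ne1
  refine ⟨fun hb => fin c 2 (z2 c) hb (fun δ => ?_) g1 (inv_ne_one.2 g2)
      (by rw [wt2, mul_inv_cancel]),
    fun hb => fin c 3 (z3 c) hb (fun δ => ?_) g1 (inv_ne_one.2 g1) (by rw [wt3, mul_inv_cancel])⟩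
  · obtain ⟨h, n, hT, hn, e⟩ := step c hS hz hd δ δ⁻¹
    refine ⟨n, hn, ?_⟩
    rw [e, ← conj_mul, hT, hT, wt2, wt3, mul_inv_cancel, Units.val_one, one_mul, pow_two,
      mul_inv_cancel_right, mul_inv_rev, ← mul_assoc (_ * x 3 d), mul_inv_cancel_right, xinv p,
      ← p.add, one_add_mul]
  · obtain ⟨h, n, hT, hn, e⟩ := step c hS hz hd δ⁻¹ (δ ^ 2)
    refine ⟨n, hn, ?_⟩
    have a : Commute (x 2 b) (x 3 ((1 + δ) * d)) := p.c1 2 _ _
    rw [e, ← conj_mul, hT, hT, wt2, wt3, ← mul_pow, inv_mul_cancel, one_pow, Units.val_one,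
      one_mul, pow_two, inv_mul_cancel_left, mul_inv_rev, xinv p (i := 3), mul_assoc (x 2 b),
      ← mul_assoc (x 3 d), ← p.add, ← one_add_mul, ← mul_assoc (x 2 b), a.eq,
      mul_inv_cancel_right]

end Cfsg.Agent.H31.S4B
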