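import Cfsg.Agent.H56.SpDefs
import Cfsg.Agent.H82.SL2
import Cfsg.Agent.H28.PSL2Small

/-! Facts on a line group `SL₂(p)`. -/

set_option autoImplicit false

namespace Cfsg.Agent.H31.SpLf

open Subgroup MulAction Cfsg.Agent.H11.Cy Cfsg.Agent.H56.Sp Cfsg.Agent.H82
open scoped MatrixGroups

theorem inv2 {F : Type} [Field F] (h2 : (2 : F) ≠ 0) (s : SL(2, F)) (h : s * s = 1) (n : s ≠ 1) :
    s = -1 := by
  have e : s⁻¹ = s := inv_eq_of_mul_eq_one_right h
  have e0 : s 1 1 = s 0 0 := (SL2_inv_00 s).symm.trans (by rw [e])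
  have e1 : -s 0 1 = s 0 1 := (SL2_inv_01 s).symm.trans (by rw [e])
  have e2 : -s 1 0 = s 1 0 := (SL2_inv_10 s).symm.trans (by rw [e])
  have b : s 0 1 = 0 := (mul_eq_zero.1 (by linear_combination -e1)).resolve_left h2
  have c : s 1 0 = 0 := (mul_eq_zero.1 (by linear_combination -e2)).resolve_left h2
  have d := SL2_det s
  rw [e0, b, zero_mul, sub_zero] at d
  rcases mul_self_eq_one_iff.1 d with k | k
  · exact absurd (SL2_ext k b c (e0.trans k)) n
  · apply SL2_ext <;> simp only [ent, e0, k, b, c]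

theorem q8 {F : Type} [Field F] [Fintype F] :
    ∃ a b : SL(2, F), a * a = -1 ∧ b * b = -1 ∧ b * a * b⁻¹ = a⁻¹ := by
  obtain ⟨p, _⟩ := CharP.exists F
  have : NeZero p := ⟨CharP.char_ne_zero_of_finite F p⟩
  obtain ⟨s, t, h⟩ := CharP.sq_add_sq F p (-1)
  push_cast at h
  obtain ⟨b, b0, b1, b2, b3⟩ : ∃ b : SL(2, F), b 0 0 = s ∧ b 0 1 = t ∧ b 1 0 = t ∧ b 1 1 = -s :=
    ⟨⟨!![(s : F), t; t, -s], by rw [Matrix.det_fin_two_of]; linear_combination -h⟩,
      rfl, rfl, rfl, rfl⟩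
  refine ⟨mm 1 one_ne_zero, b, ?_, ?_, ?_⟩
  · apply SL2_ext <;> simp only [ent, inv_one]
  · apply SL2_ext <;> simp only [ent, b0, b1, b2, b3] <;> first | linear_combination h | ring
  · rw [mul_inv_eq_iff_eq_mul]
    apply SL2_ext <;> simp only [ent, b0, b1, b2, b3, inv_one] <;> ring

theorem tr {G : Type} [Group G] {Ω : Type} [Finite Ω] [MulAction G Ω] {p : ℕ}
    {A : Ω → Subgroup G} (S : St p A) (X : Subgroup G) (Φ : Set Ω) (hA : ∀ c ∈ Φ, A c ≤ X)
    (hX : ∀ g ∈ X, ∀ c ∈ Φ, g • c ∈ Φ) (hc : Φ.ncard = p + 1) : Tr2 X Φ := by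
  have k : ∀ c ∈ Φ, ∀ d ∈ Φ, ∀ d' ∈ Φ, d ≠ c → d' ≠ c → ∃ a ∈ A c, a • d = d' := by
    intro c m d md d' md' n n'
    let f : A c → ↥(Φ \ {c}) := fun a => ⟨(a : G) • d, hX _ (hA c m a.2) d md, fun e =>
      n (MulAction.injective (a : G) (e.trans (S.fix c a a.2).symm))⟩
    have : Function.Bijective f := (Nat.bijective_iff_injective_and_card f).2 ⟨fun a b e => by
      have e' : (a : G) • d = (b : G) • d := congrArg Subtype.val e
      have := (S.semi c d _ (b⁻¹ * a).2 (by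
        rw [coe_mul, mul_smul, e', coe_inv, inv_smul_smul])).resolve_right n
      exact (inv_mul_eq_one.1 (Subtype.ext this)).symm, by
      rw [S.card, Nat.card_coe_set_eq, Set.ncard_sdiff_singleton_of_mem m, hc]; rfl⟩
    obtain ⟨a, ha⟩ := this.2 ⟨d', md', n'⟩
    exact ⟨a, a.2, congrArg Subtype.val ha⟩
  intro x mx y my x' mx' y' my' n n'
  obtain ⟨g, hg, e⟩ : ∃ g ∈ X, g • x = x' := by
    have p2 := S.pp.two_le
    obtain ⟨c, mc, nc⟩ := Set.exists_mem_notMem_of_ncard_lt_ncard (s := {x, x'}) (t := Φ)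
      (lt_of_le_of_lt (Set.ncard_insert_le x {x'}) (by rw [Set.ncard_singleton]; omega))
    simp only [Set.mem_insert_iff, Set.mem_singleton_iff, not_or] at nc
    obtain ⟨a, ha, e⟩ := k c mc x mx x' mx' (Ne.symm nc.1) (Ne.symm nc.2)
    exact ⟨a, hA c mc ha, e⟩
  obtain ⟨a, ha, e'⟩ := k x' mx' (g • y) (hX g hg y my) y' my'
    (fun h => n (MulAction.injective g (e.trans h.symm))) n'.symm
  exact ⟨a * g, X.mul_mem (hA x' mx' ha) hg, by rw [mul_smul, e, S.fix x' a ha],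
    by rw [mul_smul, e']⟩

theorem lf : LfStmt := by
  intro G _ _ Ω _ _ p A S p2 E T x y n
  obtain ⟨⟨F, _, _, hF, ⟨e⟩⟩, hl⟩ := T x y n
  have h2 : (2 : F) ≠ 0 := fun h => by
    have : ringChar F = 2 := CharP.ringChar_of_prime_eq_zero Nat.prime_two h
    have := FiniteField.even_card_iff_char_two.1 this
    have := S.pp.eq_two_or_odd
    omega
  have n1 : (-1 : SL(2, F)) ≠ 1 := fun h => h2 (by
    have : -(1 : F) = 1 := congrArg (fun s : SL(2, F) => s 0 0) h
    linear_combination -this)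
  have z1 : ∀ z, IsZ A x y z → z = e.symm (-1) := fun z hz => by
    have k1 : e ⟨z, hz.1⟩ * e ⟨z, hz.1⟩ = 1 := by
      rw [← map_mul, map_eq_one_iff e e.injective]
      exact Subtype.ext hz.2.2
    rw [← inv2 h2 _ k1 fun k => hz.2.1 (congrArg Subtype.val
      ((map_eq_one_iff e e.injective).1 k)), e.symm_apply_apply]
  have ml : ∀ s t u : SL(2, F), s * t = u → (e.symm s : G) * e.symm t = e.symm u :=
    fun s t u h => by rw [← h, map_mul, coe_mul]
  refine ⟨⟨e.symm (-1), (e.symm (-1)).2, fun k => n1 ((map_eq_one_iff _ e.symm.injective).1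
      (Subtype.ext k)), (ml _ _ 1 (by simp)).trans (by rw [map_one, coe_one])⟩,
    fun z z' h h' => (z1 z h).trans (z1 z' h').symm, fun z h g hg => ?_, fun g hg hk => ?_, ?_, hl,
    ⟨(le_sup_left : A x ≤ _), (le_sup_right : A y ≤ _)⟩, tr S _ _ (fun c hc => hc)
      (fun g hg => (E.nrm x y n g).1 (le_normalizer hg)) hl, fun z h => ?_⟩
  · obtain ⟨s, hs⟩ := e.symm.surjective ⟨g, hg⟩
    rw [z1 z h, show g = e.symm s from congrArg Subtype.val hs.symm, ml _ _ (-s) (by simp),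
      ml _ _ (-s) (by simp)]
  · have : e ⟨g, hg⟩ ∈ center _ := mem_center_iff.2 fun s => by
      obtain ⟨s, rfl⟩ := e.surjective s
      rw [← map_mul, ← map_mul]
      exact congrArg e (Subtype.ext (hk s s.2))
    have k : e ⟨g, hg⟩ * e ⟨g, hg⟩ = 1 := by
      rcases mem_center_SL2_iff.1 this with k | k <;> simp [k]
    rw [← map_mul, map_eq_one_iff e e.injective] at k
    exact congrArg Subtype.val k
  · rw [Nat.card_congr e.toEquiv]
    exact H28.card_SL2 hF
  · obtain ⟨a, b, h1, h2, h3⟩ := q8 (F := F)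
    refine ⟨e.symm a, (e.symm a).2, e.symm b, (e.symm b).2, (ml _ _ _ h1).trans (z1 z h).symm,
      (ml _ _ _ h2).trans (z1 z h).symm, ?_⟩
    have := congrArg (fun s => (e.symm s : G)) h3
    simpa only [map_mul, map_inv, coe_mul, coe_inv] using this

end Cfsg.Agent.H31.SpLf
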