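import Cfsg.Agent.H58.SWDefs

/-! The structure of an abelian minimal invariant subgroup. -/

set_option autoImplicit false

namespace Cfsg.Agent.H31.SwAbs

open Matrix Cfsg Cfsg.Agent.H58.SW

variable {F : Type} [Field F] [Fintype F] [DecidableEq F] {n : ℕ}

omit [Fintype F] [DecidableEq F] in
theorem comm1 {A : Subgroup (Gl n F)} {x y : Mt n F} (h : ∀ a ∈ A, Commute x (a : Mt n F))
    (hy : y ∈ spanG A) : Commute x y := by
  induction hy using Submodule.span_induction with
  | mem y hy =>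
    obtain ⟨a, ha, rfl⟩ := hy
    exact h a ha
  | zero => exact Commute.zero_right x
  | add y z _ _ h1 h2 => exact h1.add_right h2
  | smul a y _ h1 => exact h1.smul_right a

omit [Fintype F] [DecidableEq F] in
theorem comm2 {A : Subgroup (Gl n F)} (hA : Ab A) {x : Mt n F} (hx : x ∈ spanG A) :
    ∀ a ∈ A, Commute x (a : Mt n F) := fun a ha =>
  (comm1 (fun b hb => (hA a ha b hb).map (Units.coeHom _)) hx).symm

theorem sub {c : Cl F n} (ka : KA c) (kt : KT c) (two : TwoStmt) {r : ℕ} {H : Subgroup (Au n F)}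
    {Q : Subgroup (Gl n F)} (L : Loc c r H Q) (hr : r ≠ c.p) {E : Finset (Mt n F)} (B : Blk c H E)
    (p : Mt n F → Prop) (hp : ∀ ψ ∈ H, ∀ t, c.Ind t ψ → ∀ e ∈ E, p e → p (t.ap e)) :
    H58.SW.Small H ∨ (∀ e ∈ E, p e) ∨ ∀ e ∈ E, ¬ p e := by
  classical
  by_contra h
  push Not at h
  obtain ⟨h0, ⟨e1, m1, n1⟩, e2, m2, n2⟩ := h
  have k1 : ∀ e ∈ E, p e → (∑ f ∈ E.filter p, f) * e = e := fun e he pe => by
    rw [Finset.sum_mul, Finset.sum_eq_single_of_mem e (Finset.mem_filter.2 ⟨he, pe⟩)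
      fun f hf ne => B.fam.orth f (Finset.mem_filter.1 hf).1 e he ne, B.fam.idem e he]
  refine h0 (two F n c r H Q L hr (∑ f ∈ E.filter p, f) ?_ (fun hu => ?_) ?_ (fun e => ?_)
    fun e => ?_)
  · rw [Finset.mul_sum]
    exact Finset.sum_congr rfl fun e he =>
      k1 e (Finset.mem_filter.1 he).1 (Finset.mem_filter.1 he).2
  · exact (map_sum (AddMonoidHom.mk' c.st (ka.st_add hu)) _ _).trans
      (Finset.sum_congr rfl fun e he => B.sf hu e (Finset.mem_filter.1 he).1)
  · rintro ψ hψ t ht _ rfl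
    have im : (E.filter p).image t.ap = E.filter p := by
      refine Finset.eq_of_subset_of_card_le (Finset.image_subset_iff.2 fun e he => ?_)
        (Finset.card_image_of_injective _ (kt.bij t).1).ge
      obtain ⟨he, pe⟩ := Finset.mem_filter.1 he
      exact Finset.mem_filter.2 ⟨B.inv ψ hψ t ht e he, hp ψ hψ t ht e he pe⟩
    refine (map_sum (AddMonoidHom.mk' t.ap (kt.add t)) _ _).trans ?_
    conv_rhs => rw [← im, Finset.sum_image (kt.bij t).1.injOn]
    rfl
  · exact B.fam.ne0 e2 m2 (by rw [← k1 e2 m2 n2, e, zero_mul])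
  · refine B.fam.ne0 e1 m1 ?_
    rw [← one_mul e1, ← e, Finset.sum_mul]
    exact Finset.sum_eq_zero fun f hf => B.fam.orth f (Finset.mem_filter.1 hf).1 e1 m1
      fun k => n1 (k ▸ (Finset.mem_filter.1 hf).2)

theorem abs (hKA : KAStmt) (hKT : KTStmt) (two : TwoStmt) (fld : FldStmt) (idem : IdemStmt)
    (idem2 : Idem2Stmt) (pair : PairStmt) (kf : KfStmt) : AbsStmt := by
  intro F _ _ _ n c r H Q L hr A M hA
  have ka := hKA F n c
  have kt := hKT F n c
  have hSt : A ≤ c.St := M.le.trans (L.qh.trans inf_le_left)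
  obtain ⟨E, P⟩ := idem F n c r A L.prime hr hA M.pw
  obtain ⟨iv, st⟩ := idem2 F n c H A E hSt hA M.inv P
  have dec : ∀ x : Mt n F, x = ∑ e ∈ E, e * x := fun x => by
    rw [← Finset.sum_mul, P.fam.sum, one_mul]
  by_cases h1 : E.card ≤ 1
  · have hf : IsFld A := fun b hb => by
      obtain ⟨e, he⟩ := Finset.card_le_one_iff_subset_singleton.1 h1
      rcases Finset.subset_singleton_iff.1 he with rfl | rfl
      · exact .inl (dec b)
      · have := P.fam.sum
        rw [Finset.sum_singleton] at this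
        subst this
        simpa using P.fld 1 (Finset.mem_singleton_self _) b hb
    obtain ⟨k1, k2⟩ := fld F n c r H Q L hr A M.zlt hSt M.inv hA hf
    exact .inr (.inl ⟨k1, hf, k2⟩)
  have B : Blk c H E := ⟨P.fam, fun hu => pair F n c r H Q L hr hu E P.fam iv (st hu), iv, by omega⟩
  obtain ⟨e0, he0⟩ := Finset.card_pos.1 (show 0 < E.card by omega)
  rcases sub ka kt two L hr B (fun e => ∀ b ∈ spanG A, ∃ a : F, e * b = a • e)
    (fun ψ hψ t ht e he pe b hb => by
      obtain ⟨b', hb', rfl⟩ := kt.surj H _ (kt.span H A M.inv) ψ hψ t ht b hb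
      obtain ⟨a, ha⟩ := pe b' hb'
      refine ⟨t.σ a, ?_⟩
      rw [← kt.smul, ← ha]
      cases h : t.neg
      · exact (kt.mul t h e b').symm
      · rw [(comm1 (comm2 hA (P.mem e he)) hb').eq, kt.mul' t h]) with h | h | h
  · exact .inl h
  · rcases sub ka kt two L hr B (fun e => e.rank = e0.rank)
      (fun _ _ t _ e _ pe => (kt.rank t e).trans pe) with k | k | k
    · exact .inl k
    · refine .inr (.inr (.inr ⟨E, _, B, k, le_antisymm (fun b hb => ?_)
        (Submodule.span_le.2 P.mem)⟩))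
      rw [dec b]
      refine Submodule.sum_mem _ fun e he => ?_
      obtain ⟨a, ha⟩ := h e he b hb
      exact ha ▸ Submodule.smul_mem _ a (Submodule.subset_span he)
    · exact absurd rfl (k e0 he0)
  · have k := fun e he => (kf F n c r H Q L A E hSt M.inv hA P B e he).resolve_left (h e he)
    refine .inr (.inr (.inl ⟨fun x hx => ?_, (k e0 he0).1, (k e0 he0).2.1⟩))
    rw [dec x]
    refine Submodule.sum_mem _ fun e he => (k e he).2.2 _ ?_ fun a ha =>
      (comm2 hA (P.mem e he) a ha).mul_left (hx a ha)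
    rw [← mul_assoc, P.fam.idem e he, mul_assoc, (comm1 hx (P.mem e he)).eq, ← mul_assoc,
      P.fam.idem e he]

end Cfsg.Agent.H31.SwAbs
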